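import Mathlib
import Cfsg.Agent.H19.Dm0
import Cfsg.Agent.BG.Api2

/-! # Part T of the 3-local characterization of `S₈` -/

set_option autoImplicit false
set_option synthInstance.maxSize 4000
set_option linter.unusedSectionVars false
open Cfsg BG Subgroup H19.Dm

namespace H10.DmT
variable {G : Type*} [Group G] [Finite G] {F : P35 →* G} {s r x y : G}

theorem k1 : z * z' = z' * z ∧ t * z = z * t ∧ t * z' = z' * t ∧ u * z = z * u ∧ z ^ 3 = 1 ∧ z' ^ 3 = 1 ∧ (z * z') ^ 3 = 1 ∧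
    z ≠ 1 ∧ z' ≠ 1 ∧ z * z' ≠ 1 ∧ z ≠ z' ∧ u ≠ 1 ∧ t * t = 1 ∧ t ≠ 1 ∧ (v * z' * v) ^ 3 = 1 ∧ v * z' * v * z = z * (v * z' * v) ∧
      z' * (v * z' * v) ≠ v * z' * v * z' := by decide +kernel
theorem k2 : ∀ x : P35, x * z = z * x → x * z' = z' * x → x * x = 1 → x = 1 ∨ x = t := by decide +kernel
theorem k3 : ∀ x : P35, x * z = z * x → x * u = u * x → x ^ 3 = 1 → x = 1 ∨ x = z ∨ x = z * z := by decide +kernel

theorem f3 {x : P35} {n : ℕ} (e : x ^ n = 1) : F x ^ n = 1 := by rw [← map_pow, e, map_one]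
theorem f1 (h : Hy F s) {x : P35} (e : x ≠ 1) : F x ≠ 1 := fun k => e (h.inj (k.trans (map_one F).symm))
theorem fc {x y : P35} (e : x * y = y * x) : F x * F y = F y * F x := by rw [← map_mul, e, map_mul]
theorem zD : F z ∈ D F := subset_closure (by simp)
theorem zD' : F z' ∈ D F := subset_closure (by simp)

theorem Dle (a : r * F z = F z * r) (b : r * F z' = F z' * r) : D F ≤ C_[r] := (closure_le _).2 (by
  rintro _ (rfl | rfl)
  exacts [mem_cent1.2 a.symm, mem_cent1.2 b.symm])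

theorem Dc (i : x ∈ D F) (j : y ∈ D F) : x * y = y * x :=
  mem_cent1.1 (Dle (mem_cent1.1 (Dle rfl (fc k1.1) j)) (mem_cent1.1 (Dle (fc k1.1.symm) rfl j)) i)

theorem sD (h : Hy F s) : IsSylowIn 3 (D F) ⊤ := h.syl.elim fun P e => e ▸ isSylowIn_top Nat.prime_three P

theorem o3 (x3 : x ^ 3 = 1) (x1 : x ≠ 1) : Nat.card (zpowers x) = 3 := by
  have : Fact (Nat.Prime 3) := ⟨by norm_num⟩
  rw [Nat.card_zpowers, orderOf_eq_prime x3 x1]

theorem pg (x3 : x ^ 3 = 1) : IsPGroup 3 (zpowers x) := fun y => ⟨1, by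
  obtain ⟨_, m, rfl⟩ := y
  refine Subtype.ext ?_
  show (_ ^ m) ^ 3 ^ 1 = 1
  rw [pow_one, ← zpow_natCast, ← zpow_mul, mul_comm m, zpow_mul, zpow_natCast, x3]; simp⟩

theorem cD (h : Hy F s) (r2 : r * r = 1) (k : ∀ w ∈ D F, r * w = w * r) : r = 1 ∨ r = F t := by
  obtain ⟨x, rfl, e⟩ := h.cz (k _ zD)
  exact (k2 x e (h.inj (by rw [map_mul, map_mul, k _ zD'])) (h.inj (by rw [map_mul, r2, map_one]))).imp
    (fun e => by rw [e, map_one]) fun e => by rw [e]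

theorem key (h : Hy F s) (e : IsConj (F t) r) (c : r * x = x * r) (x3 : x ^ 3 = 1) : ∃ g, r = g * F t * g⁻¹ ∧ g⁻¹ * x * g ∈ D F := by
  obtain ⟨a, rfl⟩ := isConj_iff.1 e
  have l : D F ≤ C_[F t] := Dle (fc k1.2.1) (fc k1.2.2.1)
  obtain ⟨k, m, l'⟩ := sylow_Jsub Nat.prime_three (isSylowIn_mk Nat.prime_three l ((sD h).pg Nat.prime_three) fun d =>
    (sD h).not_dvd' Nat.prime_three (d.trans (Dvd.intro _ (relIndex_mul_relIndex _ _ _ l le_top)))) (pg (x := a⁻¹ * x * a) (by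
    rw [show a⁻¹ * x * a = a⁻¹ * x * a⁻¹⁻¹ by group, conj_pow, x3]; simp)) (zpowers_le.2 (mem_cent1.2 (by
      calc _ = a⁻¹ * (x * (a * F t * a⁻¹)) * a := by group
        _ = _ := by rw [← c]; group)))
  refine ⟨a * k⁻¹, ?_, ?_⟩
  · calc _ = a * k⁻¹ * (k * F t) * a⁻¹ := by group
      _ = _ := by rw [mem_cent1.1 m]; group
  · have : k * (a⁻¹ * x * a) * k⁻¹ ∈ D F := l' ⟨_, mem_zpowers _, rfl⟩
    rwa [show (a * k⁻¹)⁻¹ * x * (a * k⁻¹) = k * (a⁻¹ * x * a) * k⁻¹ by group]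

theorem inD (h : Hy F s) (x3 : x ^ 3 = 1) (c : x * F (z * z') = F (z * z') * x) : x ∈ D F :=
  (sD h).le_of_norm_pg' Nat.prime_three (pg x3) le_top (zpowers_le.2 (h.hy _ c)) (mem_zpowers _)

theorem cj1 {g a : G} (m : g⁻¹ * x * g ∈ D F) (i : a ∈ D F) : g * a * g⁻¹ * x = x * (g * a * g⁻¹) := by
  calc _ = g * (a * (g⁻¹ * x * g)) * g⁻¹ := by group
    _ = _ := by rw [Dc i m]; group

theorem t1 (h : Hy F s) (e : IsConj (F t) r) (c : r * F (z * z') = F (z * z') * r) : r = F t := by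
  obtain ⟨g, rfl, m⟩ := key h e c (f3 k1.2.2.2.2.2.2.1)
  have l : cj g (D F) ≤ D F := by
    rw [D, cj, MonoidHom.map_closure, closure_le]
    rintro _ ⟨_, rfl | rfl, rfl⟩
    · exact inD h (x := g * F z * g⁻¹) (by rw [conj_pow, f3 k1.2.2.2.2.1]; simp) (cj1 m zD)
    · exact inD h (x := g * F z' * g⁻¹) (by rw [conj_pow, f3 k1.2.2.2.2.2.1]; simp) (cj1 m zD')
  have e1 := Subgroup.eq_of_le_of_card_ge l (by rw [card_cj])
  obtain ⟨-, -, -, -, -, -, -, -, -, -, -, -, t2, t0, -⟩ := k1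
  refine (cD h (by rw [conj_mul, ← map_mul, t2]; simp) fun w o => ?_).resolve_left fun k => f1 h t0 (conj_eq_one_iff.1 k)
  obtain ⟨a, o', rfl⟩ := e1.ge o
  show _ * (g * a * g⁻¹) = g * a * g⁻¹ * _
  rw [conj_mul, conj_mul, mem_cent1.1 (Dle (fc k1.2.1) (fc k1.2.2.1) o')]

theorem t2 (h : Hy F s) : ¬ IsConj (F t) (F u) := fun e => by
  obtain ⟨-, tz, tz', uz, z3, z3', -, z1, z1', y1, zz, -⟩ := k1
  obtain ⟨g, eg, m⟩ := key h e (fc uz) (f3 z3)
  have a : ∀ x : P35, F x ∈ D F → t * x = x * t → x ^ 3 = 1 → x ≠ 1 → g * F x * g⁻¹ = F z ∨ g * F x * g⁻¹ = F (z * z) :=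
    fun x i c x3 x1 => by
      obtain ⟨b, eb, bz⟩ := h.cz (cj1 m i)
      rcases k3 b bz (h.inj (by rw [map_mul, map_mul, eb, eg, conj_mul, conj_mul, fc c]))
        (h.inj (by rw [map_pow, eb, conj_pow, f3 x3]; simp)) with k | k | k
      · exact absurd (conj_eq_one_iff.1 (by rw [← eb, k, map_one])) (f1 h x1)
      · exact .inl (by rw [← eb, k])
      · exact .inr (by rw [← eb, k])
  have b : g * F z * g⁻¹ ≠ g * F z' * g⁻¹ := fun k => zz (h.inj (by simpa using k))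
  have c : g * F z * g⁻¹ * (g * F z' * g⁻¹) ≠ 1 := fun k => f1 h y1 (by rwa [conj_mul, ← map_mul, conj_eq_one_iff] at k)
  rcases a z zD tz z3 z1 with p | p <;> rcases a z' zD' tz' z3' z1' with q | q <;> rw [p, q] at b c
  · exact b rfl
  · exact c (by rw [← map_mul, ← map_one F, ← z3, pow_three])
  · exact c (by rw [← map_mul, ← map_one F, ← z3, pow_three'])
  · exact b rfl

theorem cl3 (h : Hy F s) (r2 : r * r = 1) (r1 : r ≠ 1) (rt : ¬ IsConj (F t) r) (i : x ∈ C_[r]) (j : y ∈ C_[r]) (x3 : x ^ 3 = 1)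
    (x1 : x ≠ 1) (y3 : y ^ 3 = 1) (y1 : y ≠ 1) : ∃ g, g * x * g⁻¹ = y ∨ g * x * g⁻¹ = y⁻¹ := by
  classical
  obtain ⟨P, hP, l⟩ := sylow_superset Nat.prime_three (pg y3) (zpowers_le.2 j)
  obtain ⟨g, m, l'⟩ := sylow_Jsub Nat.prime_three hP (pg x3) (zpowers_le.2 i)
  obtain ⟨c, -, lc⟩ := sylow_Jsub Nat.prime_three (sD h) (hP.pg Nat.prime_three) le_top
  have a1 := card_dvd_of_le lc
  have a2 := card_dvd_of_le l
  rw [card_cj, h.cD] at a1
  rw [o3 y3 y1] at a2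
  have a3 : Nat.card P ≠ 9 := fun e => by
    have e1 := Subgroup.eq_of_le_of_card_ge lc (by rw [card_cj, h.cD, e])
    rcases cD h (r := c * r * c⁻¹) (by rw [conj_mul, r2]; simp) (fun w o => by
      obtain ⟨v, o', rfl⟩ := e1.ge o
      show _ * (c * v * c⁻¹) = c * v * c⁻¹ * _
      rw [conj_mul, conj_mul, mem_cent1.1 (hP.le o')]) with k | k
    · exact r1 (conj_eq_one_iff.1 k)
    · exact rt (isConj_iff.2 ⟨c, k⟩).symm
  have a4 : Nat.card P ≤ 3 := by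
    have := Nat.le_of_dvd (by norm_num) a1
    generalize Nat.card P = n at *
    interval_cases n <;> omega
  have e := (Subgroup.eq_of_le_of_card_ge l (by rw [o3 y3 y1]; exact a4)).ge (l' ⟨x, mem_zpowers x, rfl⟩)
  have : Fact (Nat.Prime 3) := ⟨by norm_num⟩
  rw [mem_zpowers_iff_mem_range_orderOf, orderOf_eq_prime y3 y1] at e
  simp only [Finset.mem_image, Finset.mem_range] at e
  obtain ⟨n, o, e⟩ := e
  replace e : y ^ n = g * x * g⁻¹ := e
  refine ⟨g, ?_⟩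
  obtain _ | _ | _ | n := n
  · exact absurd (conj_eq_one_iff.1 (e.symm.trans (pow_zero y))) x1
  · exact .inl (by simpa using e.symm)
  · exact .inr (e.symm.trans (eq_inv_of_mul_eq_one_left (by rw [← pow_succ, y3])))
  · omega

theorem t3 (h : Hy F s) : ¬ IsConj (F u) s := fun e0 => by
  obtain ⟨c, e⟩ := isConj_iff.1 e0
  obtain ⟨zz, -, -, uz, z3, z3', y3, z1, -, y1, -, u1, -, -, w3, wz, n⟩ := k1
  obtain ⟨g, k⟩ := cl3 h h.s2 (fun k => f1 h u1 (conj_eq_one_iff.1 (e.trans k))) (fun k => t2 h (k.trans e0.symm))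
    (x := c * F z * c⁻¹) (y := F (z * z')) (mem_cent1.2 (by rw [← e, conj_mul, conj_mul, fc uz])) (mem_cent1.2 (by
      have a : s * F z = F z' * s := by rw [← h.sz, mul_assoc, h.s2, mul_one]
      have b : s * F z' = F z * s := by rw [← h.sz', mul_assoc, h.s2, mul_one]
      rw [map_mul, ← mul_assoc, a, mul_assoc (F z'), b, ← mul_assoc, fc zz]))
    (by rw [conj_pow, f3 z3]; simp) (fun k => f1 h z1 (conj_eq_one_iff.1 k)) (f3 y3) (f1 h y1)
  have t : ∀ w : P35, w ^ 3 = 1 → w * z = z * w → g * c * F w * (g * c)⁻¹ ∈ D F := fun w w3 wz => by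
    have a : Commute (g * c * F w * (g * c)⁻¹) (g * (c * F z * c⁻¹) * g⁻¹) := by
      rw [show g * (c * F z * c⁻¹) * g⁻¹ = g * c * F z * (g * c)⁻¹ by group, Commute, SemiconjBy, conj_mul, conj_mul, fc wz]
    have b : Commute (g * c * F w * (g * c)⁻¹) (F (z * z')) := by
      rcases k with k | k <;> rw [k] at a
      exacts [a, Commute.inv_right_iff.1 a]
    exact inD h (by rw [conj_pow, f3 w3]; simp) b
  have := Dc (t _ z3' zz.symm) (t _ w3 wz)
  rw [conj_mul, conj_mul, mul_left_inj, mul_right_inj, ← map_mul, ← map_mul] at this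
  exact n (h.inj this)

/-- part T -/
theorem ct (h : Hy F s) : CT F s := ⟨fun _ => t1 h, t2 h, t3 h⟩

end H10.DmT
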