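import Mathlib

/-! # Conjugacy classes of permutation groups: an elementary exponential bound -/

namespace H10.Kc
open MulAction Finset

section orb
variable {p : ℕ} [hp : Fact p.Prime] {Ω : Type} [Fintype Ω] [DecidableEq Ω]

theorem orb {H : Type} [Group H] [MulAction H Ω] (h : IsPGroup p H) {ω : Ω} {g : H} (n : g • ω ≠ ω) {A : Finset Ω}
    (hA : ∀ g : H, g • ω ∈ A) : p ≤ A.card := by
  obtain ⟨k, e⟩ := h.card_orbit ω
  have k0 : k ≠ 0 := by
    rintro rfl
    have := (Nat.card_eq_one_iff_unique.1 e).1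
    exact n (congrArg Subtype.val (Subsingleton.elim (⟨_, mem_orbit ω g⟩ : orbit H ω) ⟨_, mem_orbit_self ω⟩))
  calc p ≤ p ^ k := Nat.le_self_pow k0 p
    _ = (orbit H ω).ncard := e.symm
    _ ≤ (A : Set Ω).ncard := Set.ncard_le_ncard (by rintro _ ⟨g, rfl⟩; exact hA g)
    _ = A.card := Set.ncard_coe_finset A

variable {P : Type} [Group P] [Fintype P] [MulAction P Ω] (h : IsPGroup p P)
include h

theorem cyc (u : P) : ∃ c, Nat.card (orbitRel.Quotient (Subgroup.zpowers u) Ω) ≤ c + #{ω : Ω | u • ω = ω} ∧ p * c ≤ #{ω : Ω | ¬ u • ω = ω} := by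
  classical
  let f : Ω → orbitRel.Quotient (Subgroup.zpowers u) Ω := Quotient.mk''
  refine ⟨#(image f {ω | ¬ u • ω = ω}), ?_, mul_card_image_le_card _ _ fun a m => ?_⟩
  · have := Fintype.ofFinite (orbitRel.Quotient (Subgroup.zpowers u) Ω)
    rw [Nat.card_eq_fintype_card]
    refine (card_le_card (t := image f {ω | ¬ u • ω = ω} ∪ image f {ω | u • ω = ω}) fun a _ => ?_).trans
      ((card_union_le ..).trans (Nat.add_le_add_left card_image_le _))
    obtain ⟨ω, rfl⟩ := Quotient.exists_rep a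
    by_cases c : u • ω = ω
    exacts [mem_union_right _ (mem_image_of_mem f (by simpa)), mem_union_left _ (mem_image_of_mem f (by simpa))]
  obtain ⟨ω, m', rfl⟩ := mem_image.1 m
  replace m := (mem_filter.1 m').2
  refine orb (h.to_subgroup (.zpowers u)) (g := ⟨u, Subgroup.mem_zpowers u⟩) m fun g => ?_
  simp only [mem_filter, mem_univ, true_and]
  refine ⟨fun e => m ?_, Quotient.sound' (mem_orbit ω g)⟩
  obtain ⟨_, i, rfl⟩ := g
  change u • u ^ i • ω = u ^ i • ω at e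
  rwa [← mul_smul, ← (Commute.refl u).zpow_left i |>.eq, mul_smul, smul_left_cancel_iff] at e

theorem cls {ω : Ω} (n : stabilizer P ω ≠ ⊤) [DecidableEq (Subgroup P)] : p ≤ #{ω' : Ω | stabilizer P ω' = stabilizer P ω} := by
  have := h.isNilpotent
  obtain ⟨g, g1, g2⟩ := SetLike.exists_of_lt (normalizerCondition_of_isNilpotent _ n.lt_top)
  refine orb (h.to_subgroup (Subgroup.normalizer (stabilizer P ω : Set P))) (g := ⟨g, g1⟩) g2 fun k => ?_
  simp only [mem_filter, mem_univ, true_and]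
  ext x
  have := (inv_mem k.2 : _ ∈ Subgroup.normalizer _) x
  simp only [SetLike.mem_coe, mem_stabilizer_iff, inv_inv, mul_smul, inv_smul_eq_iff] at this ⊢
  exact this.symm

theorem supp (hf : ∀ u : P, (∀ ω : Ω, u • ω = ω) → u = 1) (S : Finset Ω) [DecidablePred fun u : P => ∀ ω ∉ S, u • ω = ω] :
    ∃ e, #{u : P | ∀ ω ∉ S, u • ω = ω} = p ^ e ∧ (p - 1) * e ≤ #S := by
  let H : Subgroup P := ⟨⟨⟨{u | ∀ ω ∉ S, u • ω = ω}, fun a b ω m => by rw [mul_smul, b ω m, a ω m]⟩, fun ω _ => one_smul _ ω⟩,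
    fun a ω m => inv_smul_eq_iff.2 (a ω m).symm⟩
  obtain ⟨e, he⟩ := IsPGroup.iff_card.1 (h.to_subgroup H)
  refine ⟨e, by rw [← he, ← Fintype.card_subtype, ← Nat.card_eq_fintype_card]; rfl, ?_⟩
  have i : Function.Injective (toPermHom P Ω) := (injective_iff_map_eq_one _).2 fun u e => hf u (Equiv.congr_fun e)
  have := Subgroup.card_dvd_of_le (show H.map (toPermHom P Ω) ≤ (Equiv.Perm.ofSubtype (p := (· ∈ S))).range by
    rintro _ ⟨u, m, rfl⟩
    exact Equiv.Perm.mem_range_ofSubtype_iff.2 fun ω c => by_contra fun n => by simpa using (by simpa using c : ¬ _) (m ω n))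
  rw [Subgroup.card_map_of_injective i, he] at this
  replace := this.trans (Subgroup.card_range_dvd _)
  rw [Nat.card_perm, Nat.card_eq_fintype_card, Fintype.card_coe, padicValNat_dvd_iff_le (Nat.factorial_ne_zero _)] at this
  exact (Nat.mul_le_mul_left _ this).trans ((sub_one_mul_padicValNat_factorial _).le.trans (Nat.sub_le ..))

theorem wt (hf : ∀ u : P, (∀ ω : Ω, u • ω = ω) → u = 1) {a b l : ℝ} (a1 : 1 ≤ a) (l1 : 1 ≤ l) (hl : p ≤ l ^ (p - 1)) (b0 : 0 ≤ b)
    (hb : a ^ p + l ^ p * a ≤ b ^ p) : ∑ u : P, a ^ Nat.card (orbitRel.Quotient (Subgroup.zpowers u) Ω) ≤ b ^ Fintype.card Ω := by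
  classical
  have p0 := hp.out.ne_zero
  obtain ⟨ν, ν1, rfl⟩ : ∃ ν : ℝ, 1 ≤ ν ∧ ν ^ p = a := ⟨a ^ (p : ℝ)⁻¹, Real.one_le_rpow a1 (by positivity), Real.rpow_inv_natCast_pow (by positivity) p0⟩
  set a := ν ^ p
  rw [show l ^ p * a = (l * ν) ^ p by rw [mul_pow]] at hb
  have ab : a ≤ b := le_of_pow_le_pow_left₀ p0 b0 (le_trans (le_add_of_nonneg_right (by positivity)) hb)
  have ab' : l * ν ≤ b := le_of_pow_le_pow_left₀ p0 b0 (le_trans (le_add_of_nonneg_left (by positivity)) hb)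
  let s (j : Subgroup P) := #{ω : Ω | stabilizer P ω = j}
  let I := image (stabilizer P : Ω → Subgroup P) univ
  let μ (j : Subgroup P) : ℝ := if j = ⊤ then 0 else (l * ν) ^ s j
  have hs : ∀ T : Finset (Subgroup P), ∑ j ∈ T, s j = #{ω : Ω | stabilizer P ω ∈ T} := fun T => by
    rw [card_eq_sum_card_fiberwise (f := stabilizer P) (t := T) (by simp [Set.MapsTo])]
    exact sum_congr rfl fun j m => congrArg Finset.card (by ext; simp; rintro rfl; exact m)
  calc _ = ∑ T ∈ I.powerset, ∑ u with I.filter (u ∉ ·) = T, a ^ Nat.card (orbitRel.Quotient (Subgroup.zpowers u) Ω) :=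
        (sum_fiberwise_of_maps_to (fun u _ => by simp) _).symm
    _ ≤ ∑ T ∈ I.powerset, (∏ j ∈ T, μ j) * ∏ j ∈ I \ T, a ^ s j := sum_le_sum fun T m => ?_
    _ = ∏ j ∈ I, (μ j + a ^ s j) := (prod_add ..).symm
    _ ≤ ∏ j ∈ I, b ^ s j := prod_le_prod (fun j _ => by simp only [μ]; split_ifs <;> positivity) fun j m => ?_
    _ = _ := by rw [prod_pow_eq_pow_sum, hs]; simp [I]
  · by_cases c : ⊤ ∈ T
    · rw [sum_eq_zero fun u m => by simpa using (mem_filter.1 ((mem_filter.1 m).2.ge c)).2, prod_eq_zero c (by simp [μ]), zero_mul]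
    rw [prod_congr rfl (g := fun j => (l * ν) ^ s j) fun j m => if_neg (by rintro rfl; exact c m), prod_pow_eq_pow_sum, prod_pow_eq_pow_sum, hs, hs]
    set S : Finset Ω := {ω : Ω | stabilizer P ω ∈ T}
    have k : ∀ u ∈ ({u | I.filter (u ∉ ·) = T} : Finset P), ∀ ω, ω ∈ S ↔ ¬ u • ω = ω := fun u m ω => by simp [S, ← (mem_filter.1 m).2, I]
    obtain ⟨e, e1, e2⟩ := supp h hf S
    refine (sum_le_card_nsmul _ _ (ν ^ #S * a ^ #{ω : Ω | stabilizer P ω ∈ I \ T}) fun u m => ?_).trans ?_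
    · obtain ⟨c, c1, c2⟩ := cyc (Ω := Ω) h u
      refine (pow_le_pow_right₀ a1 c1).trans ?_
      rw [pow_add, ← pow_mul]
      refine mul_le_mul (pow_le_pow_right₀ ν1 (c2.trans_eq ?_)) (le_of_eq ?_) (by positivity) (by positivity)
      · congr 1; ext; simp [k u m]
      · congr 2; ext ω; simpa [S, I, not_iff_comm] using (k u m ω).not.symm
    rw [nsmul_eq_mul, mul_pow, mul_assoc]
    gcongr
    calc (_ : ℝ) ≤ (p : ℝ) ^ e := by exact_mod_cast (card_le_card fun u m => by simpa using fun ω n => by simpa [n] using k u m ω).trans e1.le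
      _ ≤ (l ^ (p - 1)) ^ e := by gcongr
      _ ≤ _ := by rw [← pow_mul]; exact pow_le_pow_right₀ l1 e2
  simp only [μ]
  split_ifs with c
  · rw [zero_add]; gcongr
  obtain ⟨ω, -, rfl⟩ := mem_image.1 m
  obtain ⟨d, e⟩ := Nat.exists_eq_add_of_le (cls h c)
  rw [show s _ = _ from e, pow_add, pow_add, pow_add]
  calc _ ≤ (l * ν) ^ p * b ^ d + a ^ p * b ^ d := by gcongr
    _ ≤ _ := by rw [← add_mul, add_comm]; gcongr
end orb

/-- representatives for the classes of elements without prime divisors below `m` -/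
def St (m n : ℕ) (a : ℝ) : Prop := ∀ (G Ω : Type) [Group G] [Finite G] [Finite Ω] [MulAction G Ω], Nat.card Ω ≤ n →
  (∀ g : G, (∀ ω : Ω, g • ω = ω) → ∀ r, r.Prime → m ≤ r → g ^ r = 1 → g = 1) →
  ∃ T : Finset G, (∀ x, (∀ r, r.Prime → r ∣ orderOf x → m ≤ r) → ∃ t ∈ T, IsConj t x) ∧ (#T : ℝ) ≤ a ^ Nat.card Ω
variable {m n : ℕ} {a b l : ℝ}

theorem base (h : n < m) (a1 : 1 ≤ a) : St m n a := fun G Ω _ _ _ _ hn hk => ⟨{1}, fun x hx => ⟨1, by simp, by
  by_contra c
  have x1 : orderOf x ≠ 1 := by rintro e; simp [orderOf_eq_one_iff.1 e] at c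
  obtain ⟨r, r1, k, e⟩ := Nat.exists_prime_and_dvd x1
  have := Fintype.ofFinite Ω
  classical
  have m1 := hx r r1 ⟨k, e⟩
  have e1 : (x ^ k) ^ r = 1 := by rw [← pow_mul, mul_comm, ← e, pow_orderOf_eq_one]
  have e2 : toPermHom G Ω (x ^ k) = 1 := by_contra fun c => by
    have := Fact.mk r1
    have := orderOf_dvd_natCard (toPermHom G Ω (x ^ k))
    rw [orderOf_eq_prime (p := r) (by rw [← map_pow, e1, map_one]) c, Nat.card_perm, r1.dvd_factorial] at this
    omega
  have := Nat.le_of_dvd (Nat.pos_of_ne_zero (by rintro rfl; simpa using (orderOf_pos x).trans_eq e))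
    (orderOf_dvd_of_pow_eq_one (hk _ (Equiv.congr_fun e2) r r1 m1 e1))
  have := orderOf_pos x
  have := r1.two_le
  nlinarith⟩, by simpa using one_le_pow₀ a1⟩

theorem skip (h : St (m + 1) n a) (c : ¬ m.Prime) (a0 : 0 ≤ a) (ab : a ≤ b) : St m n b := fun G Ω _ _ _ _ hn hk =>
  let ⟨T, a, e⟩ := h G Ω hn fun g i r j k => hk g i r j (by omega)
  ⟨T, fun x hx => a x fun r i j => (hx r i j).lt_of_ne (by rintro rfl; exact c i), e.trans (by gcongr)⟩

theorem step (h : St (m + 1) n a) (hp : m.Prime) (a1 : 1 ≤ a) (l1 : 1 ≤ l) (hl : m ≤ l ^ (m - 1)) (b0 : 0 ≤ b)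
    (hb : a ^ m + l ^ m * a ≤ b ^ m) : St m n b := fun G Ω _ _ _ _ hn hk => by
  classical
  have := Fact.mk hp
  have := Fintype.ofFinite Ω
  have := Fintype.ofFinite G
  obtain ⟨P⟩ : Nonempty (Sylow m G) := inferInstance
  have : ∀ u : P, ∃ T : Finset (Subgroup.centralizer {u.1}), (∀ x, (∀ r, r.Prime → r ∣ orderOf x → m + 1 ≤ r) → ∃ t ∈ T, IsConj t x) ∧
      (#T : ℝ) ≤ a ^ Nat.card (orbitRel.Quotient (Subgroup.zpowers u) Ω) := fun u => by
    have cm : ∀ (g : Subgroup.centralizer {u.1}) (i : ℤ) (ω : Ω), g.1 • u ^ i • ω = u ^ i • g.1 • ω := fun g i ω => by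
      change g.1 • (u.1 ^ i) • ω = (u.1 ^ i) • g.1 • ω
      rw [← mul_smul, ← mul_smul, (Commute.zpow_left (g.2 u rfl) i).eq]
    letI : MulAction (Subgroup.centralizer {u.1}) (orbitRel.Quotient (Subgroup.zpowers u) Ω) :=
      { smul g := Quotient.map' (g.1 • ·) (by rintro _ ω ⟨⟨_, i, rfl⟩, rfl⟩; exact ⟨⟨_, i, rfl⟩, (cm g i ω).symm⟩)
        one_smul := Quotient.ind' fun ω => congrArg Quotient.mk'' (one_smul G ω)
        mul_smul g k := Quotient.ind' fun ω => congrArg Quotient.mk'' (mul_smul g.1 k.1 ω) }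
    refine h _ _ ((Nat.card_le_card_of_surjective _ Quotient.mk''_surjective).trans hn) fun g hg r r1 r2 e => ?_
    obtain ⟨N, hN⟩ := P.2 u
    have e1 : g.1 ^ m ^ N = 1 := hk _ (fun ω => by
      obtain ⟨⟨_, i, rfl⟩, e⟩ : g.1 • ω ∈ orbit (Subgroup.zpowers u) ω := Quotient.exact' (hg (Quotient.mk'' ω))
      have : ∀ k : ℕ, g.1 ^ k • ω = (u ^ k) ^ i • ω := fun k => by
        induction k with
        | zero => simp
        | succ k ih => rw [pow_succ', mul_smul, ih, ← zpow_natCast, ← zpow_mul, cm, ← show u ^ i • ω = _ from e, ← mul_smul,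
            ← zpow_natCast, ← zpow_mul, ← zpow_add]; congr 2; push_cast; ring
      rw [this, hN]; simp) r r1 (by omega) (by rw [← pow_mul, mul_comm, pow_mul, show g.1 ^ r = 1 from congrArg Subtype.val e, one_pow])
    exact orderOf_eq_one_iff.1 (Nat.eq_one_of_dvd_coprimes (((Nat.coprime_primes r1 hp).2 (by omega)).pow_right N)
      (orderOf_dvd_of_pow_eq_one e) (orderOf_dvd_of_pow_eq_one (Subtype.ext e1)))
  choose T T1 T2 using this
  refine ⟨univ.biUnion fun u => (T u).image fun y => u.1 * y.1, fun x hx => ?_, ?_⟩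
  · obtain ⟨k, c, c1, e⟩ := Nat.exists_eq_pow_mul_and_not_dvd (orderOf_pos x).ne' m hp.ne_one
    obtain ⟨i, j, ij⟩ := Nat.isCoprime_iff_coprime.2 (((Nat.Prime.coprime_iff_not_dvd hp).2 c1).pow_left k)
    have z : ∀ n : ℤ, x ^ ((m ^ k * c : ℕ) * n) = 1 := fun n => by rw [zpow_mul, ← e]; simp
    obtain ⟨Q, hQ⟩ := IsPGroup.exists_le_sylow (p := m) (P := .zpowers (x ^ (j * c))) (IsPGroup.of_card (n := _) (Classical.choose_spec
      ((Nat.dvd_prime_pow hp).1 ((Nat.card_zpowers _).dvd.trans (orderOf_dvd_of_pow_eq_one (n := m ^ k) (by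
        rw [← zpow_natCast, ← zpow_mul, ← z j]; congr 1; push_cast; ring))))).2)
    obtain ⟨g, rfl⟩ := exists_smul_eq G P Q
    let u : P := ⟨g⁻¹ * x ^ (j * c) * g, show _ ∈ (P : Subgroup G) by
      simpa [Sylow.coe_subgroup_smul, Subgroup.mem_pointwise_smul_iff_inv_smul_mem] using hQ (Subgroup.mem_zpowers _)⟩
    obtain ⟨t, t1, ⟨d, t2⟩⟩ := T1 u ⟨g⁻¹ * x ^ (i * (m ^ k : ℕ)) * g, by
      rintro _ rfl; simpa [u, mul_assoc] using (Commute.zpow_zpow_self x _ _).left_comm g⟩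
      fun r r1 r2 => by
        have : r ∣ c := r2.trans (orderOf_dvd_of_pow_eq_one (Subtype.ext (by
          change (g⁻¹ * _ * g) ^ c = 1
          rw [show g⁻¹ * _ * g = g⁻¹ * _ * g⁻¹⁻¹ by rw [inv_inv], conj_pow, ← zpow_natCast, ← zpow_mul, mul_right_comm, mul_comm (i * c),
            show ((m ^ k : ℕ) : ℤ) * (i * c) = (m ^ k * c : ℕ) * i by push_cast; ring, z]; simp)))
        exact (hx r r1 (e ▸ this.mul_left _)).lt_of_ne (by rintro rfl; exact c1 this)
    refine ⟨_, mem_biUnion.2 ⟨u, mem_univ _, mem_image_of_mem _ t1⟩, isConj_iff.2 ⟨g * d.1.1, ?_⟩⟩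
    have t3 : d.1.1 * t.1 = g⁻¹ * x ^ (i * (m ^ k : ℕ)) * g * d.1.1 := congrArg Subtype.val t2.eq
    rw [mul_assoc g, ← mul_assoc d.1.1, ← d.1.2 u rfl, mul_assoc u.1, t3]
    have : x ^ (j * c) * x ^ (i * (m ^ k : ℕ)) = x := by rw [← zpow_add, add_comm, ij, zpow_one]
    simp only [u]; refine Eq.trans ?_ this; group
  refine le_trans ?_ ((wt P.2 (fun u hu => by_contra fun n => ?_) a1 l1 hl b0 hb).trans_eq (by rw [Nat.card_eq_fintype_card]))
  · exact le_trans (by exact_mod_cast card_biUnion_le.trans (sum_le_sum fun u _ => card_image_le)) (sum_le_sum fun u _ => T2 u)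
  obtain ⟨k, e⟩ := IsPGroup.iff_orderOf.1 P.2 u
  obtain _ | k := k
  · exact n (orderOf_eq_one_iff.1 e)
  have := hk (u.1 ^ m ^ k) (fun ω => (stabilizer G ω).pow_mem (hu ω) _) m hp le_rfl (by
    rw [← pow_mul, ← pow_succ, ← e]; exact congrArg Subtype.val (pow_orderOf_eq_one u))
  have := Nat.le_of_dvd (pow_pos hp.pos k) (e ▸ orderOf_dvd_of_pow_eq_one (Subtype.ext this : u ^ m ^ k = 1))
  exact this.not_gt (Nat.pow_lt_pow_right hp.one_lt k.lt_succ_self)

theorem tail (d : ℕ) : ∀ m, 11 ≤ m → n < m + d → St m n (3 / 2 + 6 * (2 / 3) ^ (m - 2)) := by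
  induction d with
  | zero => exact fun m _ h => base h (by linarith [show (0 : ℝ) ≤ (2 / 3) ^ (m - 2) by positivity])
  | succ d ih =>
  intro m h h'
  obtain ⟨k, rfl⟩ : ∃ k, m = k + 2 := ⟨m - 2, by omega⟩
  have := ih (k + 2 + 1) (by omega) (by omega)
  rw [show k + 2 + 1 - 2 = k + 1 from rfl, pow_succ] at this
  rw [Nat.add_sub_cancel]
  have e : (2 / 3 : ℝ) ^ k * (3 / 2) ^ k = 1 := by rw [← mul_pow]; norm_num
  have x0 : (0 : ℝ) < (2 / 3) ^ k := by positivity
  generalize (2 / 3 : ℝ) ^ k = x at *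
  by_cases c : (k + 2).Prime
  swap
  · exact skip this c (by positivity) (by linarith)
  obtain ⟨l, l0, hl⟩ : ∃ l : ℝ, 0 ≤ l ∧ l ^ (k + 1) = (k + 2 : ℕ) :=
    ⟨((k + 2 : ℕ) : ℝ) ^ ((k + 1 : ℕ) : ℝ)⁻¹, by positivity, Real.rpow_inv_natCast_pow (by positivity) (by omega)⟩
  have l2 : l ≤ 2 := le_of_pow_le_pow_left₀ (n := k + 1) (by omega) (by norm_num) (by rw [hl]; exact_mod_cast Nat.lt_two_pow_self)
  refine step this c (by linarith) (le_of_pow_le_pow_left₀ (n := k + 1) (by omega) l0 (by rw [hl, one_pow]; norm_cast; omega)) hl.ge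
    (by positivity) ?_
  set y := 3 / 2 + 6 * (x * (2 / 3))
  have y1 : 3 / 2 ≤ y := by simp only [y]; linarith
  refine le_trans ?_ ((pow_add_mul_le_add_pow (a := y) (b := 2 * x) (by positivity) (by positivity) (k + 2)).trans_eq (by
    congr 1; simp only [y]; ring))
  have : 1 ≤ x * y ^ k := e.ge.trans (by gcongr)
  rw [pow_succ l, hl, show k + 2 - 1 = k + 1 from rfl, pow_succ y k, add_le_add_iff_left, mul_assoc, mul_assoc]
  refine mul_le_mul_of_nonneg_left ?_ (by positivity)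
  nlinarith [mul_le_mul_of_nonneg_left this (show 0 ≤ y by positivity)]

theorem main (n : ℕ) : St 2 n (21 / 5) := by
  have h8 : St 8 n (166 / 100) := skip (skip (skip (tail (n + 1) 11 le_rfl (by omega)) (by norm_num) (by norm_num) (by norm_num))
    (by norm_num) (by norm_num) le_rfl) (by norm_num) (by norm_num) le_rfl
  have h6 : St 6 n (176 / 100) := skip (step (l := 139 / 100) h8 (by norm_num) (by norm_num) (by norm_num) (by norm_num) (by norm_num)
    (by norm_num)) (by norm_num) (by norm_num) le_rfl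
  have h4 : St 4 n (198 / 100) := skip (step (l := 3 / 2) h6 (by norm_num) (by norm_num) (by norm_num) (by norm_num) (by norm_num)
    (by norm_num)) (by norm_num) (by norm_num) le_rfl
  exact step (l := 2) (step (l := 174 / 100) (b := 264 / 100) h4 (by norm_num) (by norm_num) (by norm_num) (by norm_num) (by norm_num)
    (by norm_num)) (by norm_num) (by norm_num) (by norm_num) (by norm_num) (by norm_num) (by norm_num)

theorem card_le (d : ℕ) (G : Subgroup (Equiv.Perm (Fin d))) : (Nat.card (ConjClasses G) : ℝ) ≤ (21 / 5) ^ d := by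
  classical
  obtain ⟨T, a, b⟩ := main d G (Fin d) (by simp) fun g hg _ _ _ _ => Subtype.ext (Equiv.ext hg)
  refine le_trans ?_ (by simpa using b)
  rw [Nat.cast_le, ← Fintype.card_coe, ← Nat.card_eq_fintype_card]
  refine Nat.card_le_card_of_surjective (fun t : T => ConjClasses.mk t.1) fun c => ?_
  obtain ⟨x, rfl⟩ := ConjClasses.mk_surjective c
  obtain ⟨t, m, e⟩ := a x fun r h _ => h.two_le
  exact ⟨⟨t, m⟩, ConjClasses.mk_eq_mk_iff_isConj.2 e⟩

end H10.Kc
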