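import Mathlib
import Cfsg.Agent.H10.SubfL

/-!
# Families of subspaces with a maximal intersection
* `Fam M St` : images under `M` of the standard subspaces `St`; `MP` : a pair with maximal intersection
* `pt K v` : the `K`-point on `v` as an `F`-subspace; `lemZ`, `scalar_of_pres`
-/

namespace H10.Mx

open Module

variable {F V : Type*} [Field F] [AddCommGroup V] [Module F V]

def Fam (M : Subgroup (V ≃ₗ[F] V)) (St : Set (Submodule F V)) : Set (Submodule F V) :=
  {A | ∃ g ∈ M, ∃ P ∈ St, A = P.map (g : V →ₗ[F] V)}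

variable {M : Subgroup (V ≃ₗ[F] V)} {St : Set (Submodule F V)} {A B : Submodule F V} {g : V ≃ₗ[F] V}

theorem map_mul' (A : Submodule F V) (g h : V ≃ₗ[F] V) :
    A.map ((g * h : V ≃ₗ[F] V) : V →ₗ[F] V) = (A.map (h : V →ₗ[F] V)).map (g : V →ₗ[F] V) := by
  rw [← Submodule.map_comp]; rfl

theorem map_inv_map (A : Submodule F V) (g : V ≃ₗ[F] V) :
    (A.map (g : V →ₗ[F] V)).map (g.symm : V →ₗ[F] V) = A := by
  rw [← Submodule.map_comp]; simp

theorem mem_map_iff {x : V} : x ∈ A.map (g : V →ₗ[F] V) ↔ g.symm x ∈ A :=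
  Submodule.mem_map_equiv A

theorem symm_mem (h : g ∈ M) : g.symm ∈ M := M.inv_mem h

theorem mem_fam (h : A ∈ St) : A ∈ Fam M St := ⟨1, M.one_mem, A, h, (Submodule.map_id A).symm⟩

theorem fam_map (h : A ∈ Fam M St) (hg : g ∈ M) : A.map (g : V →ₗ[F] V) ∈ Fam M St := by
  obtain ⟨k, hk, P, hP, rfl⟩ := h
  exact ⟨g * k, M.mul_mem hg hk, P, hP, (map_mul' _ _ _).symm⟩

structure MP (M : Subgroup (V ≃ₗ[F] V)) (St : Set (Submodule F V)) (A B : Submodule F V) : Prop where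
  l : A ∈ Fam M St
  r : B ∈ Fam M St
  ne : A ≠ B
  nb : A ⊓ B ≠ ⊥
  mx : ∀ A' ∈ Fam M St, ∀ B' ∈ Fam M St, A' ≠ B' → finrank F ↥(A' ⊓ B') ≤ finrank F ↥(A ⊓ B)

variable [FiniteDimensional F V]

theorem exists_mp (h1 : A ∈ Fam M St) (h2 : B ∈ Fam M St) (h3 : A ≠ B) (h4 : A ⊓ B ≠ ⊥) :
    ∃ A B, MP M St A B := by
  obtain ⟨⟨A', B'⟩, ⟨a, b, c⟩, d⟩ := (wellFounded_lt.onFun (f := fun x : Submodule F V × Submodule F V =>
    finrank F V - finrank F ↥(x.1 ⊓ x.2))).has_min {x | x.1 ∈ Fam M St ∧ x.2 ∈ Fam M St ∧ x.1 ≠ x.2}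
    ⟨(A, B), h1, h2, h3⟩
  have d' : ∀ X ∈ Fam M St, ∀ Y ∈ Fam M St, X ≠ Y → finrank F ↥(X ⊓ Y) ≤ finrank F ↥(A' ⊓ B') :=
    fun X hX Y hY h => by
      have := d (X, Y) ⟨hX, hY, h⟩
      have := Submodule.finrank_le (X ⊓ Y)
      simp only [Function.onFun] at *; omega
  refine ⟨A', B', a, b, c, fun h => h4 ?_, d'⟩
  have := d' A h1 B h2 h3
  rw [h, finrank_bot, nonpos_iff_eq_zero] at this
  exact Submodule.finrank_eq_zero.1 this

omit [FiniteDimensional F V] in
theorem MP.symm (h : MP M St A B) : MP M St B A :=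
  ⟨h.r, h.l, h.ne.symm, inf_comm A B ▸ h.nb, inf_comm A B ▸ h.mx⟩

omit [FiniteDimensional F V] in
theorem MP.map (h : MP M St A B) (hg : g ∈ M) :
    MP M St (A.map (g : V →ₗ[F] V)) (B.map (g : V →ₗ[F] V)) := by
  have e : A.map (g : V →ₗ[F] V) ⊓ B.map (g : V →ₗ[F] V) = (A ⊓ B).map (g : V →ₗ[F] V) :=
    (Submodule.map_inf _ g.injective).symm
  refine ⟨fam_map h.l hg, fam_map h.r hg, fun h1 => h.ne (Submodule.map_injective_of_injective g.injective h1),
    fun h1 => h.nb ?_, fun X hX Y hY h1 => ?_⟩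
  · rwa [e, Submodule.map_eq_bot_iff] at h1
  · rw [e, LinearEquiv.finrank_map_eq]; exact h.mx X hX Y hY h1

omit [FiniteDimensional F V] in
theorem MP.std (h : MP M St A B) : ∃ g ∈ M, ∃ P ∈ St, A = P.map (g : V →ₗ[F] V) ∧
    MP M St P (B.map (g.symm : V →ₗ[F] V)) := by
  obtain ⟨g, hg, P, hP, e⟩ := h.l
  refine ⟨g, hg, P, hP, e, ?_⟩
  have := h.map (symm_mem hg)
  rwa [e, map_inv_map] at this

theorem MP.stab (h : MP M St A B) (hg : g ∈ M) (h1 : ∀ y ∈ A, y ∈ B → g y ∈ B) {t : V} (h2 : t ∈ B)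
    (h3 : t ∉ A) (h4 : g t ∈ B) : ∀ y ∈ B, g y ∈ B := by
  by_contra h5
  have h6 := h.mx _ (fam_map h.r hg) _ h.r fun e => h5 fun y hy => e ▸ Submodule.mem_map_of_mem hy
  have h7 : ((A ⊓ B) ⊔ F ∙ t).map (g : V →ₗ[F] V) ≤ B.map (g : V →ₗ[F] V) ⊓ B := by
    refine le_inf (Submodule.map_mono (sup_le inf_le_right ((Submodule.span_singleton_le_iff_mem _ _).2 h2))) ?_
    rw [Submodule.map_le_iff_le_comap]
    exact sup_le (fun y hy => h1 y hy.1 hy.2) ((Submodule.span_singleton_le_iff_mem _ _).2 h4)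
  have h8 := Submodule.finrank_mono h7
  rw [LinearEquiv.finrank_map_eq, Submodule.finrank_sup_span_singleton fun h : t ∈ A ⊓ B => h3 h.1] at h8
  omega

theorem MP.exists_not {r : ℕ} (h : MP M St A B) (hr : ∀ P ∈ St, finrank F P = r) : ∃ t ∈ B, t ∉ A := by
  have : ∀ X ∈ Fam M St, finrank F X = r := by
    rintro _ ⟨g, -, P, hP, rfl⟩; rw [LinearEquiv.finrank_map_eq, hr P hP]
  by_contra! h1
  exact h.ne (Submodule.eq_of_le_of_finrank_eq h1 ((this _ h.r).trans (this _ h.l).symm)).symm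

section fld
variable (K : Type*) [Field K] [Algebra F K] [Module K V] [IsScalarTower F K V]

variable (F) in
/-- the `K`-point on `v` -/
def pt (v : V) : Submodule F V := (K ∙ v).restrictScalars F

variable {K}
omit [FiniteDimensional F V] in
theorem mem_pt {v y : V} : y ∈ pt F K v ↔ ∃ k : K, k • v = y := Submodule.mem_span_singleton
omit [FiniteDimensional F V] in
theorem smul_mem_pt (k : K) (v : V) : k • v ∈ pt F K v := mem_pt.2 ⟨k, rfl⟩
omit [FiniteDimensional F V] in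
theorem self_mem_pt (v : V) : v ∈ pt F K v := mem_pt.2 ⟨1, one_smul _ _⟩
omit [FiniteDimensional F V] in
theorem pt_eq {v w : V} (h : w ∈ pt F K v) (h0 : w ≠ 0) : pt F K w = pt F K v := by
  obtain ⟨k, rfl⟩ := mem_pt.1 h
  rw [pt, Submodule.span_singleton_smul_eq (IsUnit.mk0 k (left_ne_zero_of_smul h0))]; rfl

omit [FiniteDimensional F V] in
theorem finrank_pt {v : V} (h : v ≠ 0) : finrank F (pt F K v) = finrank F K :=
  (((LinearEquiv.toSpanNonzeroSingleton K V v h).restrictScalars F).finrank_eq).symm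

omit [FiniteDimensional F V] in
theorem mem_bot_of_pres [FiniteDimensional F K] (hr : (finrank F K).Prime) {S : Submodule F K}
    (h0 : S ≠ ⊥) (h1 : S ≠ ⊤) {e : K} (h : ∀ s ∈ S, e * s ∈ S) : ∃ c : F, e = algebraMap F K c := by
  let E : Subalgebra F K :=
    { carrier := {e | ∀ s ∈ S, e * s ∈ S}
      mul_mem' := fun ha hb s hs => by rw [mul_assoc]; exact ha _ (hb s hs)
      add_mem' := fun ha hb s hs => by rw [add_mul]; exact S.add_mem (ha s hs) (hb s hs)
      algebraMap_mem' := fun c s hs => by rw [← Algebra.smul_def]; exact S.smul_mem c hs }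
  rcases (Subalgebra.isSimpleOrder_of_finrank_prime F K hr).eq_bot_or_eq_top E with h2 | h2
  · obtain ⟨c, hc⟩ := Algebra.mem_bot.1 (h2 ▸ (show e ∈ E from h))
    exact ⟨c, hc.symm⟩
  · obtain ⟨s, hs, hs0⟩ := S.ne_bot_iff.1 h0
    refine (h1 (eq_top_iff.2 fun k _ => ?_)).elim
    simpa [hs0] using (show k / s ∈ E from h2 ▸ trivial) s hs

omit [FiniteDimensional F V] in
/-- the zero-or-injective property forces codimension one -/
theorem lemZ [FiniteDimensional F K] (hr : (finrank F K).Prime) {S : Submodule F K}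
    (h0 : S ≠ ⊥) (h1 : S ≠ ⊤) {v t t' : V} (ht : t ∉ K ∙ v)
    (h : ∀ φ : Dual K V, φ v = 0 → φ t ∈ S → φ t' ∈ S) : ∃ c : F, t' - c • t ∈ K ∙ v := by
  obtain ⟨k, hk⟩ : ∃ k, k ∉ S := by by_contra! h2; exact h1 (eq_top_iff.2 fun k _ => h2 k)
  have h2 : t' ∈ (K ∙ v) ⊔ K ∙ t := by
    by_contra h2
    obtain ⟨f, a, b⟩ := exists_dual_sep h2
    refine hk (by simpa [b] using h (k • f) (by simp [a v (Submodule.mem_sup_left
      (Submodule.mem_span_singleton_self v))]) (by simp [a t (Submodule.mem_sup_right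
      (Submodule.mem_span_singleton_self t))]))
  obtain ⟨y, hy, _, hz, rfl⟩ := Submodule.mem_sup.1 h2
  obtain ⟨e, rfl⟩ := Submodule.mem_span_singleton.1 hz
  obtain ⟨f, a, b⟩ := exists_dual_sep ht
  obtain ⟨c, rfl⟩ := mem_bot_of_pres hr h0 h1 (e := e) fun s hs => by
    simpa [a y hy, b, mul_comm] using h (s • f) (by simp [a v (Submodule.mem_span_singleton_self v)])
      (by simpa [b])
  exact ⟨c, by simpa using hy⟩

omit [FiniteDimensional F V] in
theorem exists_mul_eq [FiniteDimensional F K] {l : Dual F K} (hl : l ≠ 0) (m : Dual F K) :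
    ∃ c : K, ∀ k, m k = l (c * k) := by
  let T : K →ₗ[F] Dual F K := (LinearMap.mul F K).compr₂ l
  have h1 : Function.Injective T := (injective_iff_map_eq_zero T).2 fun c hc => by
    by_contra h0
    exact hl (LinearMap.ext fun k => by simpa [T, h0] using LinearMap.congr_fun hc (c⁻¹ * k))
  obtain ⟨c, hc⟩ := (LinearMap.injective_iff_surjective_of_finrank_eq_finrank
    Subspace.dual_finrank_eq.symm).1 h1 m
  exact ⟨c, fun k => by simp [← hc, T]⟩

omit [FiniteDimensional F V] in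
/-- every `F`-functional is `l ∘ ψ` for a `K`-functional `ψ` -/
theorem exists_kdual [FiniteDimensional F K] {l : Dual F K} (hl : l ≠ 0) (f : Dual F V) :
    ∃ ψ : Dual K V, ∀ x, f x = l (ψ x) := by
  have h : ∀ x : V, ∃ c : K, ∀ k, f (k • x) = l (c * k) := fun x =>
    exists_mul_eq hl (f ∘ₗ (LinearMap.toSpanSingleton K V x).restrictScalars F)
  choose c hc using h
  have h2 : ∀ a b : K, (∀ k, l (a * k) = l (b * k)) → a = b := fun a b h => by
    by_contra h0
    refine hl (LinearMap.ext fun k => ?_)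
    have := h ((a - b)⁻¹ * k)
    rwa [← sub_eq_zero, ← map_sub, ← sub_mul, mul_inv_cancel_left₀ (sub_ne_zero.2 h0)] at this
  refine ⟨⟨⟨c, fun x y => h2 _ _ fun k => ?_⟩, fun a x => h2 _ _ fun k => ?_⟩, fun x => by simpa using hc x 1⟩
  · rw [add_mul, map_add, ← hc, ← hc, ← hc, smul_add, map_add]
  · simp only [RingHom.id_apply, smul_eq_mul]
    rw [← hc, smul_smul, hc]; congr 1; ring

omit [FiniteDimensional F V] in
theorem coef_eq {θ : V →ₗ[F] V} {v w : V} {a b c : K} (h : w ∉ K ∙ v) (h0 : v ≠ 0) (h1 : θ v = a • v)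
    (h2 : θ w = b • w) (h3 : θ (v + w) = c • (v + w)) : a = b := by
  have e : (a - c) • v = (c - b) • w := by
    rw [map_add, h1, h2, smul_add] at h3
    linear_combination (norm := module) h3
  by_cases h4 : c - b = 0
  · rw [h4, zero_smul, smul_eq_zero_iff_left h0, sub_eq_zero] at e
    exact e.trans (sub_eq_zero.1 h4)
  · exact (h (Submodule.mem_span_singleton.2 ⟨(c - b)⁻¹ * (a - c), by
      rw [mul_smul, e, inv_smul_smul₀ h4]⟩)).elim

end fld
end H10.Mx
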