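import Mathlib
import Cfsg.Agent.H10.MxA

/-!
# Overgroups of `SL_n(K)` in `GL_{nr}(F)`, `r = [K : F]` prime
* `Un M X` : `1 + X ∈ M`; `HK M K` : `M` contains the `K`-linear dilatransvections of determinant one
* `HK.dichotomy` : `M` normalises `K` or contains all transvections
-/

namespace H10.Mx

open Module

variable {F V : Type*} [Field F] [AddCommGroup V] [Module F V] {M : Subgroup (V ≃ₗ[F] V)}

def Un (M : Subgroup (V ≃ₗ[F] V)) (X : V →ₗ[F] V) : Prop := ∃ x ∈ M, ∀ z, x z = z + X z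

/-- conjugate of a linear map -/
def cn (k : V ≃ₗ[F] V) (X : V →ₗ[F] V) : V →ₗ[F] V := (k : V →ₗ[F] V) ∘ₗ X ∘ₗ (k.symm : V →ₗ[F] V)

@[simp] theorem cn_apply (k : V ≃ₗ[F] V) (X : V →ₗ[F] V) (z : V) : cn k X z = k (X (k.symm z)) := rfl

variable {X Y : V →ₗ[F] V} {k : V ≃ₗ[F] V} {A B : Submodule F V}

theorem inv_eq_of {x : V ≃ₗ[F] V} (h : ∀ z, x z = z + X z) (h0 : ∀ z, X (X z) = 0) (z : V) :
    x.symm z = z - X z := by
  rw [LinearEquiv.symm_apply_eq]; simp [h, h0]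

theorem Un.cn (h : Un M X) (hk : k ∈ M) : Un M (cn k X) := by
  obtain ⟨x, hx, h⟩ := h
  exact ⟨k * x * k⁻¹, M.mul_mem (M.mul_mem hk hx) (M.inv_mem hk), fun z => by
    simp [LinearEquiv.mul_apply, h]⟩

theorem Un.sub (h : Un M X) (h' : Un M Y) (h1 : ∀ z, X (Y z) = 0) (h2 : ∀ z, Y (Y z) = 0) : Un M (X - Y) := by
  obtain ⟨x, hx, h⟩ := h
  obtain ⟨y, hy, h'⟩ := h'
  exact ⟨x * y⁻¹, M.mul_mem hx (M.inv_mem hy), fun z => by
    simp only [LinearEquiv.mul_apply, LinearEquiv.coe_inv, inv_eq_of h' h2, h, map_sub, h1, LinearMap.sub_apply]; abel⟩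

theorem Un.comm (h : Un M X) (h' : Un M Y) (h1 : ∀ z, X (X z) = 0) (h2 : ∀ z, Y (Y z) = 0)
    (h3 : ∀ z, X (Y z) = 0) : Un M (Y ∘ₗ X) := by
  obtain ⟨y, hy, e⟩ := h'
  convert (h.cn hy).sub h (fun z => by simp [inv_eq_of e h2, h1, h3]) h1 using 1
  ext z; simp [inv_eq_of e h2, e, h3]

theorem Un.tv {u : V} {f : Dual F V} (h : Un M X) (e : ∀ z, X z = f z • u) : Tv M u f := by
  obtain ⟨x, hx, h⟩ := h
  exact ⟨x, hx, fun z => e z ▸ h z⟩

structure Ub (M : Subgroup (V ≃ₗ[F] V)) (A : Submodule F V) (X : V →ₗ[F] V) : Prop where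
  im : ∀ z, X z ∈ A
  ker : ∀ z ∈ A, X z = 0
  un : Un M X

theorem Ub.cn (h : Ub M A X) (hk : k ∈ M) : Ub M (A.map (k : V →ₗ[F] V)) (cn k X) :=
  ⟨fun _ => Submodule.mem_map_of_mem (h.im _), fun z hz => by
    rw [cn_apply, h.ker _ (mem_map_iff.1 hz), map_zero], h.un.cn hk⟩

theorem Ub.sub (h : Ub M A X) (h' : Ub M A Y) : Ub M A (X - Y) :=
  ⟨fun z => A.sub_mem (h.im z) (h'.im z), fun z hz => by simp [h.ker z hz, h'.ker z hz],
    h.un.sub h'.un (fun z => h.ker _ (h'.im z)) fun z => h'.ker _ (h'.im z)⟩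

theorem map_eq_of_le [FiniteDimensional F V] (h : ∀ y ∈ A, k y ∈ A) : A.map (k : V →ₗ[F] V) = A :=
  Submodule.eq_of_le_of_finrank_eq (Submodule.map_le_iff_le_comap.2 h) (LinearEquiv.finrank_map_eq _ _)

variable {K : Type*} [Field K] [Algebra F K] [Module K V] [IsScalarTower F K V]

/-- `z ↦ φ z • w` -/
def rk (F : Type*) [Field F] [Module F V] [Algebra F K] [IsScalarTower F K V] (w : V) (φ : Dual K V) :
    V →ₗ[F] V := (φ.smulRight w).restrictScalars F

@[simp] theorem rk_apply (w : V) (φ : Dual K V) (z : V) : rk F w φ z = φ z • w := rfl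

variable (M K) in
def HK : Prop := ∀ (w : V) (φ : Dual K V), Algebra.norm F (1 + φ w) = 1 → Un M (rk F w φ)

variable (F V K) in
def StK : Set (Submodule F V) := {P | ∃ v : V, v ≠ 0 ∧ P = pt F K v}

theorem eq_zero_of_mul {l : Dual F K} (hl : l ≠ 0) {a : K} (h : ∀ k, l (k * a) = 0) : a = 0 := by
  by_contra h0
  exact hl (LinearMap.ext fun k => by simpa [h0] using h (k / a))

theorem exists_dual_val {v t : V} (h : t ∉ K ∙ v) (a : K) : ∃ φ : Dual K V, φ v = 0 ∧ φ t = a := by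
  obtain ⟨f, h1, h2⟩ := exists_dual_sep h
  exact ⟨a • f, by simp [h1 v (Submodule.mem_span_singleton_self v)], by simp [h2]⟩

theorem exists_tau : ∃ τ : Dual F K, ∀ c, τ (algebraMap F K c) = c := by
  obtain ⟨τ, -, h⟩ := exists_dual_sep (F := F) (W := ⊥) (u := (1 : K)) (by simp)
  exact ⟨τ, fun c => by rw [Algebra.algebraMap_eq_smul_one, map_smul, h, smul_eq_mul, mul_one]⟩

theorem norm_span [Finite F] [FiniteDimensional F K] {S : Submodule F K}
    (h : ∀ d : K, Algebra.norm F d = 1 → d ∈ S) (h1 : 2 ≤ finrank F K) : S = ⊤ := by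
  by_contra h0
  have := Module.finite_of_finite F (M := K)
  let N : Kˣ →* Fˣ := Units.map (Algebra.norm F : K →* F)
  have h2 : Nat.card N.ker + 1 ≤ Nat.card S := by
    have := Nat.card_le_card_of_injective (fun x : Option N.ker => (x.elim 0 fun d =>
      ⟨d.1, h _ (congrArg Units.val d.2)⟩ : S)) (by
        rintro (_ | a) (_ | b) e
        · rfl
        · exact (b.1.ne_zero (congrArg Subtype.val e).symm).elim
        · exact (a.1.ne_zero (congrArg Subtype.val e)).elim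
        · exact congrArg some (Subtype.ext (Units.ext (congrArg Subtype.val e))))
    simpa using this
  have h3 := N.ker.card_mul_index
  have h4 : N.ker.index ≤ Nat.card Fˣ := Subgroup.index_ker N ▸ Subgroup.card_le_card_group _
  have h5 := Submodule.finrank_lt h0
  rw [Nat.card_units, Module.natCard_eq_pow_finrank (K := F) (V := K)] at h3
  rw [Nat.card_units] at h4
  rw [Module.natCard_eq_pow_finrank (K := F) (V := S)] at h2
  have h6 : 2 ≤ Nat.card F := Finite.one_lt_card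
  obtain ⟨r, hr⟩ : ∃ r, finrank F K = r + 1 := ⟨finrank F K - 1, by omega⟩
  have h7 := Nat.pow_le_pow_right (n := Nat.card F) (by omega) (show finrank F S ≤ r by omega)
  have h8 := Nat.le_self_pow (n := r) (by omega) (Nat.card F)
  rw [hr, pow_succ] at h3
  generalize Nat.card F ^ r = a at *
  have h9 := Nat.mul_le_mul (show Nat.card N.ker ≤ a - 1 by omega) h4
  obtain ⟨q, hq⟩ : ∃ q, Nat.card F = q + 1 := ⟨Nat.card F - 1, by omega⟩
  obtain ⟨a, rfl⟩ : ∃ b, a = b + 1 := ⟨a - 1, by omega⟩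
  rw [h3, hq] at h9
  simp only [Nat.add_sub_cancel, add_mul, mul_add] at h9
  omega

theorem span2 (hV : finrank K V = 2) {v t : V} (hv : v ≠ 0) (ht : t ∉ K ∙ v) (z : V) :
    ∃ a b : K, z = a • v + b • t := by
  have := Module.finite_of_finrank_eq_succ hV
  have h : (K ∙ v) ⊔ K ∙ t = ⊤ := Submodule.eq_top_of_finrank_eq (by
    rw [Submodule.finrank_sup_span_singleton ht, finrank_span_singleton hv, hV])
  obtain ⟨_, h1, _, h2, e⟩ := Submodule.mem_sup.1 (h.ge (Submodule.mem_top (x := z)))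
  obtain ⟨a, rfl⟩ := Submodule.mem_span_singleton.1 h1
  obtain ⟨b, rfl⟩ := Submodule.mem_span_singleton.1 h2
  exact ⟨a, b, e.symm⟩

theorem map_pt {l : V ≃ₗ[F] V} (h : ∀ (k : K) y, l (k • y) = k • l y) (v : V) :
    (pt F K v).map (l : V →ₗ[F] V) = pt F K (l v) := by
  ext y
  simp only [Submodule.mem_map, mem_pt, LinearEquiv.coe_coe]
  exact ⟨by rintro ⟨_, ⟨k, rfl⟩, rfl⟩; exact ⟨k, (h k v).symm⟩,
    by rintro ⟨k, rfl⟩; exact ⟨_, ⟨k, rfl⟩, h k v⟩⟩

theorem scalar_of_pres (hn : ∀ v : V, ∃ w, w ∉ K ∙ v) {θ : V →ₗ[F] V} (h : ∀ v, θ v ∈ pt F K v) :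
    ∃ k : K, ∀ v, θ v = k • v := by
  choose a ha using fun v => mem_pt.1 (h v)
  have H : ∀ v w : V, v ≠ 0 → w ∉ K ∙ v → a v = a w := fun v w h1 h2 =>
    coef_eq h2 h1 (ha v).symm (ha w).symm (ha _).symm
  obtain ⟨u, hu⟩ := hn 0
  have hu0 : u ≠ 0 := by rintro rfl; exact hu (Submodule.zero_mem _)
  refine ⟨a u, fun v => ?_⟩
  by_cases hv : v = 0
  · simp [hv]
  by_cases h1 : v ∈ K ∙ u
  · obtain ⟨w, hw⟩ := hn u
    rw [H u w hu0 hw, ← H v w hv fun h2 => hw ((Submodule.span_singleton_le_iff_mem _ _).2 h1 h2), ha]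
  · rw [H u v hu0 h1, ha]

theorem exists_not_mem_pt (hn : 2 ≤ finrank K V) (v : V) : ∃ w, w ∉ K ∙ v := by
  by_contra! h
  have := finrank_span_singleton_le (F := K) v
  rw [show K ∙ v = ⊤ from eq_top_iff.2 fun w _ => h w, finrank_top] at this; omega

theorem exists_ker (hn : 2 ≤ finrank K V) (ψ : Dual K V) : ∃ z, z ≠ 0 ∧ ψ z = 0 := by
  by_contra! h
  have := Module.finite_of_finrank_pos (show 0 < finrank K V by omega)
  have := LinearMap.finrank_le_finrank_of_injective (f := ψ)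
    ((injective_iff_map_eq_zero ψ).2 fun z hz => by_contra fun h0 => h z h0 hz)
  rw [finrank_self] at this; omega

namespace HK
variable (h : HK M K)
include h

theorem ub {v : V} {φ : Dual K V} (h0 : φ v = 0) : Ub M (pt F K v) (rk F v φ) :=
  ⟨fun _ => smul_mem_pt _ _, fun z hz => by obtain ⟨k, rfl⟩ := mem_pt.1 hz; simp [h0],
    h v φ (by simp [h0])⟩

theorem trans (hn : ∀ v : V, ∃ w, w ∉ K ∙ v) {u v : V} (hu : u ≠ 0) (hv : v ≠ 0) :
    ∃ l ∈ M, (∀ (k : K) y, l (k • y) = k • l y) ∧ l u = v := by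
  have H : ∀ {u v : V}, u ≠ 0 → v ∉ K ∙ u → ∃ l ∈ M, (∀ (k : K) y, l (k • y) = k • l y) ∧ l u = v := by
    intro u v hu h1
    have h2 : u ∉ K ∙ (v - u) := fun h2 => by
      obtain ⟨k, hk⟩ := Submodule.mem_span_singleton.1 h2
      have h3 : k ≠ 0 := by rintro rfl; exact hu (by simpa using hk.symm)
      exact h1 (Submodule.mem_span_singleton.2 ⟨k⁻¹ + 1, by
        rw [add_smul]; nth_rw 1 [← hk]; rw [inv_smul_smul₀ h3]; simp⟩)
    obtain ⟨φ, a, b⟩ := exists_dual_val h2 1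
    obtain ⟨x, hx, e⟩ := (h.ub a).un
    exact ⟨x, hx, fun k y => by simp [e, mul_smul], by simp [e, b]⟩
  by_cases h1 : v ∈ K ∙ u
  · obtain ⟨w, hw⟩ := hn u
    obtain ⟨l, a, b, c⟩ := H hu hw
    obtain ⟨l', a', b', c'⟩ := H (u := w) (v := v) (by rintro rfl; exact hw (Submodule.zero_mem _))
      fun h2 => hw ((Submodule.span_singleton_le_iff_mem _ _).2 h1
        (by_contra fun h3 => Form.not_mem_span_singleton_symm hv h3 h2))
    exact ⟨l' * l, M.mul_mem a' a, fun k y => by simp [LinearEquiv.mul_apply, b, b'],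
      by simp [LinearEquiv.mul_apply, c, c']⟩
  · exact H hu h1

variable [FiniteDimensional F V] [FiniteDimensional F K]

omit [FiniteDimensional F V] in
theorem full_of (hn : ∀ v : V, ∃ w, w ∉ K ∙ v) (hn' : ∀ ψ : Dual K V, ∃ z, z ≠ 0 ∧ ψ z = 0) {u : V} (hu : u ≠ 0)
    (H : ∀ f : Dual F V, (∀ k : K, f (k • u) = 0) → Tv M u f) (v : V) : v ∈ fullSub M := by
  have H' : ∀ v : V, v ≠ 0 → ∀ f : Dual F V, (∀ k : K, f (k • v) = 0) → Tv M v f := fun v hv f hf => by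
    obtain ⟨l, a, b, rfl⟩ := h.trans hn hu hv
    convert (H (f ∘ₗ (l : V →ₗ[F] V)) fun k => by simpa [b] using hf k).conj a using 1
    ext; simp
  by_cases hv : v = 0
  · exact hv ▸ (fullSub M).zero_mem
  intro f hf
  obtain ⟨τ, hτ⟩ := exists_tau (F := F) (K := K)
  obtain ⟨ψ, hψ⟩ := exists_kdual (K := K) (l := τ) (fun h => by simpa [h] using hτ 1) f
  obtain ⟨z, hz, h1⟩ := hn' ψ
  have h2 : ∀ k : K, f (k • z) = 0 := fun k => by simp [hψ, h1]
  by_cases h3 : z ∈ pt F K v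
  · refine H' v hv f fun k => ?_
    obtain ⟨a, ha⟩ := mem_pt.1 ((pt_eq h3 hz).ge (smul_mem_pt k v))
    exact ha ▸ h2 a
  obtain ⟨f', a, b⟩ := exists_dual_sep h3
  simpa [b] using (H' v hv f' fun k => a _ (smul_mem_pt k v)).extract (H' z hz f h2)
    (a _ (self_mem_pt v)) (by simpa using h2 1) hf

variable (hr : (finrank F K).Prime) (hm : MP M (StK F V K) A B)
include hr hm

theorem codim {t : V} (h1 : t ∈ B) (h2 : t ∉ A) {y : V} (hy : y ∈ B) : ∃ c : F, y - c • t ∈ A := by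
  obtain ⟨g, hg, _, ⟨v, hv, rfl⟩, rfl, hm'⟩ := hm.std
  have h3 : g.symm t ∉ pt F K v := fun h => h2 (mem_map_iff.2 h)
  obtain ⟨u, hu, hu'⟩ := hm'.symm.exists_not (r := finrank F K) (by rintro _ ⟨v, hv, rfl⟩; exact finrank_pt hv)
  obtain ⟨c, hc⟩ := lemZ hr (S := (B.map (g.symm : V →ₗ[F] V)).comap
    ((LinearMap.toSpanSingleton K V v).restrictScalars F)) (t' := g.symm y)
    (fun h0 => hm'.nb (eq_bot_iff.2 fun z hz => by
      obtain ⟨k, rfl⟩ := mem_pt.1 hz.1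
      simp [show k = 0 from h0.le hz.2]))
    (fun h0 => by
      obtain ⟨k, rfl⟩ := mem_pt.1 hu
      exact hu' (h0.ge (Submodule.mem_top (x := k)))) h3 fun φ a b => by
    obtain ⟨x, hx, e⟩ := (h.ub a).un
    have := hm'.stab hx (fun z hz hz' => by rwa [e, (h.ub a).ker z hz, add_zero]) (Submodule.mem_map_of_mem h1) h3
      (by rw [e]; exact add_mem (Submodule.mem_map_of_mem h1) b) _ (Submodule.mem_map_of_mem hy)
    rw [e] at this
    exact (add_mem_cancel_left (Submodule.mem_map_of_mem hy)).1 this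
  exact ⟨c, mem_map_iff.2 (by rw [map_sub, map_smul]; exact hc)⟩

theorem tv_three (hn : ∀ v t : V, ∃ ψ : Dual K V, ψ ≠ 0 ∧ ψ v = 0 ∧ ψ t = 0) :
    ∃ u : V, u ≠ 0 ∧ ∀ f : Dual F V, (∀ k : K, f (k • u) = 0) → Tv M u f := by
  obtain ⟨_, -, _, ⟨v, hv, rfl⟩, -, hm'⟩ := hm.std
  clear hm; have hm := hm'; clear hm'
  have hd : ∀ P ∈ StK F V K, finrank F P = finrank F K := by rintro _ ⟨v, hv, rfl⟩; exact finrank_pt hv
  obtain ⟨t, ht, ht'⟩ := hm.exists_not hd
  obtain ⟨u, hu, hu'⟩ := hm.symm.exists_not hd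
  obtain ⟨g, hg, _, ⟨v', hv', rfl⟩, e⟩ := hm.r
  rw [e] at hm ht hu'
  obtain ⟨φ, a, b⟩ := exists_dual_val (K := K) (v := v') (t := g.symm u) (fun h => hu' (mem_map_iff.2 h)) 1
  have hY := (h.ub a).cn hg
  obtain ⟨τ, hτ⟩ := exists_tau (F := F) (K := K)
  let l : Dual F K := τ ∘ₗ φ.restrictScalars F ∘ₗ (g.symm : V →ₗ[F] V) ∘ₗ
    (LinearMap.toSpanSingleton K V v).restrictScalars F
  have h1 : ∀ k : K, cn g (rk F v' φ) (k • v) = l k • g v' := fun k => by
    obtain ⟨c, hc⟩ := h.codim hr hm.symm hu hu' (smul_mem_pt k v)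
    obtain ⟨d, hd⟩ := mem_pt.1 (mem_map_iff.1 hc)
    have : φ (g.symm (k • v)) = algebraMap F K c := by
      have := congrArg φ hd
      simp only [map_smul, a, map_sub, LinearMap.map_smul_of_tower, b, smul_zero] at this
      rw [Algebra.algebraMap_eq_smul_one, ← sub_eq_zero, ← this]
    simp [l, this, hτ]
  have hl : l ≠ 0 := fun h0 => by
    obtain ⟨k, rfl⟩ := mem_pt.1 hu
    exact hv' (by simpa [h0, b] using h1 k)
  have h2 : ∀ ψ : Dual K V, ψ v = 0 → ψ t = 0 → ψ (g v') = 0 ∧ Tv M (g v') (l ∘ₗ ψ.restrictScalars F) :=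
    fun ψ c d => by
    have h3 : ∀ y ∈ (pt F K v').map (g : V →ₗ[F] V), ψ y = 0 := fun y hy => by
      obtain ⟨c', hc⟩ := h.codim hr hm ht ht' hy
      obtain ⟨k, hk⟩ := mem_pt.1 hc
      have := congrArg ψ hk
      simpa [c, d, eq_comm] using this
    exact ⟨h3 _ (Submodule.mem_map_of_mem (self_mem_pt v')), ((h.ub c).un.comm hY.un (fun z => by simp [c])
      (fun z => hY.ker _ (hY.im z)) fun z => by rw [rk_apply, h3 _ (hY.im z), zero_smul]).tv fun z => h1 _⟩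
  refine ⟨g v', by simpa using hv', fun f hf => ?_⟩
  obtain ⟨χ, hχ⟩ := exists_kdual hl f
  have h3 : χ (g v') = 0 := eq_zero_of_mul hl fun k => by simpa [hχ] using hf k
  obtain ⟨ψ, h4, h5, h6⟩ := hn v t
  obtain ⟨w, hw⟩ : ∃ w, ψ w = 1 := LinearMap.surjective h4 1
  obtain ⟨h7, h8⟩ := h2 ψ h5 h6
  obtain ⟨x, hx, e⟩ := (h.ub (v := w) (φ := χ - χ w • ψ) (by simp [hw])).un
  have h9 : x.symm (g v') = g v' := by rw [inv_eq_of e (fun z => by simp [hw])]; simp [h3, h7]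
  have := h8.conj (symm_mem hx)
  rw [h9] at this
  convert (this.sub h8 (by simp [e, h3, h7]) (by simp [h7])).add
    (h2 (χ w • ψ) (by simp [h5]) (by simp [h6])).2 (by simp [e, h3, h7]) using 1
  ext z
  simp [e, hw, hχ]

variable (hV : finrank K V = 2)
include hV

omit hm in
theorem adjust [Finite F] {v₀ v a t : V} (h0 : v₀ ≠ 0) (hX : Ub M (pt F K v₀) X) (h1 : X ≠ 0)
    (ha : a ∈ pt F K v₀) (ha' : a ∉ LinearMap.range X) (hv : v ≠ 0) {l : Dual F K} (hl : l ≠ 0)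
    (ht : t ∉ K ∙ v) : ∃ X', Ub M (pt F K v) X' ∧ (∀ z, ∃ k, l k = 0 ∧ X' z = k • v) ∧ X' t ≠ 0 := by
  obtain ⟨f, f1, f2⟩ := exists_dual_sep ha'
  obtain ⟨c, hc⟩ := exists_mul_eq hl (f ∘ₗ (LinearMap.toSpanSingleton K V v₀).restrictScalars F)
  have c0 : c ≠ 0 := by
    rintro rfl
    obtain ⟨k, rfl⟩ := mem_pt.1 ha
    simpa [f2] using hc k
  obtain ⟨g, hg, g1, g2⟩ := h.trans (exists_not_mem_pt hV.ge) h0 (smul_ne_zero c0 hv)
  have h2 := hX.cn hg
  rw [map_pt g1, g2, pt_eq (smul_mem_pt c v) (smul_ne_zero c0 hv)] at h2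
  obtain ⟨d, d1, d2⟩ : ∃ d : K, Algebra.norm F d = 1 ∧ cn g X (d • t) ≠ 0 := by
    by_contra! H
    have h3 := norm_span (S := (LinearMap.ker (cn g X)).comap
      ((LinearMap.toSpanSingleton K V t).restrictScalars F)) H hr.two_le
    refine h1 (LinearMap.ext fun z => ?_)
    obtain ⟨a, b, e⟩ := span2 hV hv ht (g z)
    have : cn g X (g z) = 0 := by
      rw [e, map_add, h2.ker _ (smul_mem_pt a v), zero_add]; exact h3.ge (Submodule.mem_top (x := b))
    simpa using this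
  obtain ⟨φ, a1, a2⟩ := exists_dual_val ht 1
  obtain ⟨x, hx, e⟩ := h ((d - 1) • t) φ (by simp [a2, d1])
  have h3 : ∀ y ∈ pt F K v, x.symm y = y := fun y hy => by
    obtain ⟨k, rfl⟩ := mem_pt.1 hy
    rw [LinearEquiv.symm_apply_eq]; simp [e, a1]
  have h4 := h2.cn (symm_mem hx)
  rw [map_eq_of_le fun y hy => by rwa [h3 y hy]] at h4
  refine ⟨_, h4, fun z => ?_, ?_⟩
  · obtain ⟨k, hk⟩ := mem_pt.1 (hX.im (g.symm (x z)))
    refine ⟨c * k, by rw [← hc]; simpa [hk] using f1 _ ⟨_, rfl⟩, ?_⟩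
    rw [cn_apply, h3 _ (h2.im _)]; simp [← hk, g1, g2, smul_smul, mul_comm]
  · rw [cn_apply, h3 _ (h2.im _), LinearEquiv.symm_symm, e]
    convert d2 using 2; simp [a2, sub_smul]

theorem tv_two [Finite F] {v₀ a : V} (h0 : v₀ ≠ 0) (hX : Ub M (pt F K v₀) X) (h1 : X ≠ 0)
    (ha : a ∈ pt F K v₀) (ha' : a ∉ LinearMap.range X) :
    ∃ u : V, u ≠ 0 ∧ ∀ f : Dual F V, (∀ k : K, f (k • u) = 0) → Tv M u f := by
  obtain ⟨_, -, _, ⟨v', hv', rfl⟩, -, hm'⟩ := hm.std
  clear hm; have hm := hm'; clear hm'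
  have hd : ∀ P ∈ StK F V K, finrank F P = finrank F K := by rintro _ ⟨v, hv, rfl⟩; exact finrank_pt hv
  obtain ⟨u, hu, hu'⟩ := hm.exists_not hd
  obtain ⟨t, ht, ht'⟩ := hm.symm.exists_not hd
  obtain ⟨g, hg, _, ⟨v, hv, rfl⟩, e⟩ := hm.r
  rw [e] at hm hu ht'
  obtain ⟨k₀, hk⟩ := mem_pt.1 (mem_map_iff.1 hu)
  obtain rfl : u = g (k₀ • v) := by simp [hk]
  obtain ⟨l, l1, l2⟩ := exists_dual_sep (u := k₀) (W := (pt F K v').comap ((g : V →ₗ[F] V) ∘ₗ
    (LinearMap.toSpanSingleton K V v).restrictScalars F)) hu'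
  obtain ⟨X', x1, x2, x3⟩ := h.adjust hr hV h0 hX h1 ha ha' hv (l := l) (fun h => by simp [h] at l2)
    (t := g.symm t) fun h => ht' (mem_map_iff.2 h)
  have x4 := x1.cn hg
  have x5 : ∀ z, cn g X' z ∈ pt F K v' := fun z => by
    obtain ⟨k, k1, k2⟩ := x2 (g.symm z)
    obtain ⟨c, hc⟩ := h.codim hr hm hu hu' (Submodule.mem_map_of_mem (smul_mem_pt k v))
    have := l1 (k - c • k₀) (by simpa [sub_smul] using hc)
    rw [map_sub, k1, map_smul, l2, smul_eq_mul, mul_one, zero_sub, neg_eq_zero] at this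
    simpa [this, k2] using hc
  have s0 : cn g X' t ≠ 0 := by simpa using x3
  obtain ⟨f₀, -, f1⟩ := exists_dual_sep (F := F) (W := ⊥) s0
  let m : Dual F K := f₀ ∘ₗ cn g X' ∘ₗ (LinearMap.toSpanSingleton K V v').restrictScalars F
  have h2 : ∀ k : K, cn g X' (k • v') = m k • cn g X' t := fun k => by
    obtain ⟨c, hc⟩ := h.codim hr hm.symm ht ht' (smul_mem_pt k v')
    have := x4.ker _ hc
    rw [map_sub, sub_eq_zero, LinearMap.map_smul _ c] at this
    simp only [m, LinearMap.comp_apply, LinearMap.restrictScalars_apply, LinearMap.toSpanSingleton_apply, this,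
      map_smul, f1, smul_eq_mul, mul_one]
  have hm0 : m ≠ 0 := fun h => by
    obtain ⟨k, hk⟩ := mem_pt.1 ht
    have := h2 k
    rw [hk, h, LinearMap.zero_apply, zero_smul] at this; exact s0 this
  refine ⟨_, s0, fun f hf => ?_⟩
  obtain ⟨χ, hχ⟩ := exists_kdual hm0 f
  have h3 : χ (cn g X' t) = 0 := eq_zero_of_mul hm0 fun k => by
    have := hf k; rwa [hχ, map_smul] at this
  obtain ⟨k, hk⟩ := mem_pt.1 (x5 t)
  have h4 : χ v' = 0 := by
    rw [← hk, map_smul, smul_eq_zero] at h3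
    exact h3.resolve_left fun h => s0 (by rw [← hk, h, zero_smul])
  exact ((h.ub h4).un.comm x4.un (fun z => by simp [h4]) (fun z => x4.ker _ (x4.im z))
    fun z => (h.ub h4).ker _ (x5 z)).tv fun z => by rw [hχ, ← h2]; rfl

theorem exists_sing (hex : 3 ≤ finrank F K ∨ ∃ c : F, c ≠ 0 ∧ c ≠ 1) : ∃ (v : V) (X : V →ₗ[F] V) (a : V),
    v ≠ 0 ∧ Ub M (pt F K v) X ∧ X ≠ 0 ∧ a ∈ pt F K v ∧ a ∉ LinearMap.range X := by
  by_contra! H
  obtain ⟨_, -, _, ⟨v', hv', rfl⟩, -, hm'⟩ := hm.std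
  clear hm; have hm := hm'; clear hm'
  have hd : ∀ P ∈ StK F V K, finrank F P = finrank F K := by rintro _ ⟨v, hv, rfl⟩; exact finrank_pt hv
  obtain ⟨u, hu, hu'⟩ := hm.exists_not hd
  obtain ⟨t, ht, ht'⟩ := hm.symm.exists_not hd
  obtain ⟨g, hg, _, ⟨v, hv, rfl⟩, e⟩ := hm.r
  rw [e] at hm hu ht'
  obtain ⟨s, hs, s0⟩ := (Submodule.ne_bot_iff _).1 hm.nb
  obtain ⟨k₁, hk⟩ := mem_pt.1 (mem_map_iff.1 hs.2)
  obtain ⟨k₀, hk'⟩ := mem_pt.1 (mem_map_iff.1 hu)
  obtain ⟨k₂, hk''⟩ := mem_pt.1 ht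
  obtain ⟨φ, a1, a2⟩ := exists_dual_val (K := K) (v := v) (t := g.symm t) (fun h => ht' (mem_map_iff.2 h)) k₁
  obtain ⟨φ', b1, b2⟩ := exists_dual_val (K := K) hu' k₂
  have hX := (h.ub a1).cn hg
  have hY := h.ub b1
  set X := cn g (rk F v φ) with eX
  set Y := rk F v' φ' with eY
  have x1 : X t = s := by simp [eX, a2, hk]
  have y1 : Y u = t := by simp [eY, b2, hk'']
  have k0 : k₁ ≠ 0 := by rintro rfl; exact s0 (by simpa using hk.symm)
  obtain ⟨z, hz⟩ : ∃ z, X z = u := ⟨g ((k₀ / k₁) • g.symm t), by simp [eX, a2, k0, hk']⟩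
  have x2 : ∀ y ∈ pt F K v', X y ∈ F ∙ s := fun y hy => by
    obtain ⟨c, hc⟩ := h.codim hr hm.symm ht ht' hy
    have := hX.ker _ hc
    rw [map_sub, sub_eq_zero, map_smul, x1] at this
    exact this ▸ Submodule.smul_mem _ _ (Submodule.mem_span_singleton_self s)
  have x3 : F ∙ s ≤ pt F K v' := (Submodule.span_singleton_le_iff_mem _ _).2 hs.1
  have x4 : t ∉ F ∙ s := fun h => ht' ((Submodule.span_singleton_le_iff_mem _ _).2 hs.2 h)
  have hZ : ∀ c : F, Ub M (pt F K v') (c • (X ∘ₗ Y - Y ∘ₗ X) - (c * c) • X ∘ₗ Y ∘ₗ X) := fun c => by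
    obtain ⟨x, hx, e⟩ := ((h.ub (v := v) (φ := algebraMap F K c • φ) (by simp [a1])).cn hg).un
    have e' : ∀ z, x z = z + (c • X) z := fun z => by simp [e, eX]
    have := hY.cn hx
    rw [map_eq_of_le fun y hy => e' y ▸ add_mem hy (Submodule.smul_mem _ _ (x3 (x2 y hy)))] at this
    convert this.sub hY using 1
    ext z
    simp only [cn_apply, inv_eq_of e' fun z => by simp [hX.ker _ (hX.im z)], e', LinearMap.sub_apply,
      LinearMap.smul_apply, LinearMap.comp_apply, map_sub, map_smul]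
    module
  rcases hex with h3 | ⟨c, c0, c1⟩
  · by_cases h5 : (1 : F) • (X ∘ₗ Y - Y ∘ₗ X) - ((1 : F) * 1) • X ∘ₗ Y ∘ₗ X = 0
    · have := LinearMap.congr_fun h5 z
      simp only [one_smul, mul_one, LinearMap.sub_apply, LinearMap.comp_apply, hz, y1, x1,
        LinearMap.zero_apply] at this
      refine x4 ((show t = X (Y z) - s by linear_combination (norm := module) -this) ▸ sub_mem
        (x2 _ (hY.im z)) (Submodule.mem_span_singleton_self s))
    have h6 : pt F K v' ≤ (F ∙ s) ⊔ F ∙ t := fun y hy => by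
      obtain ⟨w, rfl⟩ := H v' _ y hv' (hZ 1) h5 hy
      obtain ⟨c, hc⟩ := h.codim hr hm hu hu' (hX.im w)
      have := hY.ker _ hc
      rw [map_sub, sub_eq_zero, map_smul, y1] at this
      simp only [one_smul, mul_one, LinearMap.sub_apply, LinearMap.comp_apply]
      exact sub_mem (sub_mem (Submodule.mem_sup_left (x2 _ (hY.im _))) (Submodule.mem_sup_right
        (this ▸ Submodule.smul_mem _ _ (Submodule.mem_span_singleton_self t))))
        (Submodule.mem_sup_left (x2 _ (hY.im _)))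
    have := Submodule.finrank_mono h6
    rw [Submodule.finrank_sup_span_singleton x4, finrank_span_singleton s0, finrank_pt hv'] at this
    omega
  · obtain ⟨k, hk⟩ := mem_pt.1 ((hZ 1).im u)
    obtain ⟨ψ, c2, c3⟩ := exists_dual_val (K := K) hu' k
    have h4 := (hZ 1).sub (h.ub c2)
    have h5 : (1 : F) • (X ∘ₗ Y - Y ∘ₗ X) - ((1 : F) * 1) • X ∘ₗ Y ∘ₗ X - rk F v' ψ = 0 := by
      by_contra h5
      set W := (1 : F) • (X ∘ₗ Y - Y ∘ₗ X) - ((1 : F) * 1) • X ∘ₗ Y ∘ₗ X - rk F v' ψ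
      have h6 := Submodule.finrank_mono (show pt F K v' ≤ _ from fun y hy => H v' _ y hv' h4 h5 hy)
      have h7 := Submodule.finrank_mono (show pt F K v' ⊔ F ∙ u ≤ LinearMap.ker W from sup_le h4.ker
        ((Submodule.span_singleton_le_iff_mem _ _).2 (by
          rw [LinearMap.mem_ker, LinearMap.sub_apply, ← hk, rk_apply, c3, sub_self])))
      have h8 := W.finrank_range_add_finrank_ker
      rw [Submodule.finrank_sup_span_singleton hu'] at h7
      rw [finrank_pt hv'] at h6 h7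
      rw [← finrank_mul_finrank F K V, hV] at h8; omega
    have h6 := (hZ c).sub (h.ub (v := v') (φ := algebraMap F K c • ψ) (by simp [c2]))
    have h7 : c • (X ∘ₗ Y - Y ∘ₗ X) - (c * c) • X ∘ₗ Y ∘ₗ X - rk F v' (algebraMap F K c • ψ) =
        (c - c * c) • X ∘ₗ Y ∘ₗ X := by
      rw [show rk F v' (algebraMap F K c • ψ) = c • rk F v' ψ from LinearMap.ext fun z => by simp,
        ← sub_eq_zero.1 h5]; module
    rw [h7] at h6
    obtain ⟨w, hw⟩ := H v' _ t hv' h6 (fun h8 => by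
      have := LinearMap.congr_fun h8 z
      simp only [LinearMap.smul_apply, LinearMap.comp_apply, hz, y1, x1, LinearMap.zero_apply,
        smul_eq_zero_iff_left s0] at this
      exact mul_ne_zero c0 (sub_ne_zero.2 c1.symm) (by linear_combination this)) ht
    exact x4 (hw ▸ Submodule.smul_mem _ _ (x2 _ (hY.im _)))

omit hm hV in
theorem dichotomy [Finite F] (hn : 2 ≤ finrank K V)
    (hex : 3 ≤ finrank K V ∨ 3 ≤ finrank F K ∨ ∃ c : F, c ≠ 0 ∧ c ≠ 1) : (∀ v, v ∈ fullSub M) ∨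
    ∀ g ∈ M, ∀ k : K, ∃ k' : K, ∀ y, g (k • y) = k' • g y := by
  by_cases H : ∀ A ∈ Fam M (StK F V K), A ∈ StK F V K
  · refine Or.inr fun g hg k => ?_
    obtain ⟨k', e⟩ := scalar_of_pres (exists_not_mem_pt hn) (θ := cn g ((LinearMap.lsmul K V k).restrictScalars F))
      fun v => by
        by_cases hv : v = 0
        · simp [hv]
        obtain ⟨w, -, e⟩ := H _ (fam_map (mem_fam ⟨v, hv, rfl⟩) (symm_mem hg))
        obtain ⟨a, ha⟩ := mem_pt.1 (e.le (Submodule.mem_map_of_mem (self_mem_pt v)))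
        simpa [← mul_smul, mul_comm, ← show a • w = g.symm v from ha] using mem_map_iff.1 (e.ge (smul_mem_pt (k * a) w))
    exact ⟨k', fun y => by simpa using e (g y)⟩
  push Not at H
  obtain ⟨A, hA, hA'⟩ := H
  obtain ⟨v, hv, v0⟩ : ∃ v ∈ A, v ≠ 0 := by
    obtain ⟨g, -, _, ⟨v, hv, rfl⟩, rfl⟩ := hA
    exact ⟨g v, Submodule.mem_map_of_mem (self_mem_pt v), by simpa using hv⟩
  obtain ⟨A, B, hm⟩ := exists_mp hA (mem_fam ⟨v, v0, rfl⟩) (fun e => hA' ⟨v, v0, e⟩)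
    ((Submodule.ne_bot_iff _).2 ⟨v, ⟨hv, self_mem_pt v⟩, v0⟩)
  obtain ⟨u, hu, H⟩ : ∃ u : V, u ≠ 0 ∧ ∀ f : Dual F V, (∀ k : K, f (k • u) = 0) → Tv M u f := by
    by_cases h3 : 3 ≤ finrank K V
    · refine h.tv_three hr hm fun v t => ?_
      have := Module.finite_of_finrank_pos (show 0 < finrank K V by omega)
      obtain ⟨w, hw⟩ : ∃ w, w ∉ (K ∙ v) ⊔ K ∙ t := by
        by_contra! h4
        have := Submodule.finrank_add_le_finrank_add_finrank (K ∙ v) (K ∙ t)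
        have := finrank_span_singleton_le (F := K) v
        have := finrank_span_singleton_le (F := K) t
        rw [show (K ∙ v) ⊔ K ∙ t = ⊤ from eq_top_iff.2 fun w _ => h4 w, finrank_top] at *; omega
      obtain ⟨f, a, b⟩ := exists_dual_sep hw
      exact ⟨f, fun h => by simp [h] at b, a _ (Submodule.mem_sup_left (Submodule.mem_span_singleton_self v)),
        a _ (Submodule.mem_sup_right (Submodule.mem_span_singleton_self t))⟩
    · obtain ⟨v, X, a, h1, h2, h4, h5, h6⟩ := h.exists_sing hr hm (by omega) (hex.resolve_left h3)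
      exact h.tv_two hr hm (by omega) h1 h2 h4 h5 h6
  exact Or.inl (h.full_of (exists_not_mem_pt hn) (exists_ker hn) hu H)

omit hm hr in
theorem full_of_tv (hq : ∀ c : F, c ≠ 0 → c = 1) {u : V} {f : Dual F V} (hu : u ≠ 0) (hf : f ≠ 0)
    (h0 : f u = 0) (h1 : Tv M u f) (v : V) : v ∈ fullSub M := by
  refine h.full_of (exists_not_mem_pt hV.ge) (exists_ker hV.ge) hu (fun f' hf' => ?_) v
  obtain ⟨τ, hτ⟩ := exists_tau (F := F) (K := K)
  have τ0 : τ ≠ 0 := fun h => by simpa [h] using hτ 1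
  obtain ⟨ψ, hψ⟩ := exists_kdual (K := K) τ0 f
  obtain ⟨χ, hχ⟩ := exists_kdual (K := K) τ0 f'
  have h2 : χ u = 0 := eq_zero_of_mul τ0 fun k => by simpa [hχ] using hf' k
  have H : ∀ (w : V) (φ : Dual K V), φ u = 0 → 1 + φ w ≠ 0 → Tv M u (f + f ∘ₗ rk F w φ) := fun w φ a b => by
    obtain ⟨x, hx, e⟩ := h w φ (hq _ (by simpa using b))
    convert h1.conj (symm_mem hx) using 1
    · rw [eq_comm, LinearEquiv.symm_apply_eq]; simp [e, a]
    · ext z; simp [e]
  by_cases h3 : ψ u = 0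
  · obtain ⟨w, hw⟩ : ∃ w, ψ w = 1 := LinearMap.surjective (fun h => hf (by ext; simp [hψ, h])) 1
    have h4 : ∀ z, χ z = ψ z * χ w := fun z => by
      obtain ⟨a, b, rfl⟩ := span2 hV hu (t := w) (fun h => by
        obtain ⟨k, rfl⟩ := Submodule.mem_span_singleton.1 h; simp [h3] at hw) z
      simp [h2, h3, hw]
    by_cases h5 : χ w = 0
    · convert tv_zero; ext z; simp [hχ, h4 z, h5]
    convert H ((χ w - 1) • w) ψ h3 (by simpa [hw] using h5) using 1
    ext z; simp [hψ, hχ, h4 z, hw, mul_sub]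
  · convert (H u ((ψ u)⁻¹ • χ) (by simp [h2]) (by simp [h2])).sub h1 (by simp [h0, h2]) h0 using 1
    ext z; simp [hψ, hχ, mul_right_comm, h3]

end HK
end H10.Mx
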