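import Mathlib
import Cfsg.Agent.H10.MxF
import Cfsg.Agent.H10.AsSL

/-!
# Extension field subgroups of `GL` and `SL` are maximal
* `fld_bridge` : a field subalgebra of a matrix algebra as an abstract field extension
* `fld_cases`, `isMaximalIn_fld_sl`, `isCoatom_fld`
-/

namespace H10.Mx

open Module Matrix Cfsg Cfsg.Geo H10.As

section
variable {F V : Type*} [Field F] [AddCommGroup V] [Module F V] {M : Subgroup (V ≃ₗ[F] V)}
  {K : Type*} [Field K] [Algebra F K] [Module K V] [IsScalarTower F K V]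

theorem gl42_aux : ∀ a d : Fin 4 → ZMod 2, ∀ T ∈ [!![0, a 0, 1, d 0; 0, a 1, 0, d 1; 1, a 2, 1, d 2; 0, a 3, 0, d 3]],
    T * T = T + 1 → ∃ A ∈ [!![0, 0, 0, 1; 0, 0, 1, 1; 1, 0, 0, 0; 0, 1, 0, (0 : ZMod 2)],
      !![0, 0, 0, 1; 0, 0, 1, 1; 0, 1, 0, 0; 1, 1, 0, 0], !![0, 0, 0, 1; 0, 0, 1, 1; 0, 1, 0, 1; 1, 1, 1, 1],
      !![0, 0, 0, 1; 0, 0, 1, 1; 0, 1, 1, 0; 1, 1, 0, 1]], ∃ x ∈ [(![1, 0, 0, 1], ![0, 1, 1, (0 : ZMod 2)]),
      (![1, 1, 1, 1], ![1, 1, 1, 1]), (![0, 1, 0, 0], ![0, 0, 1, 0]), (![1, 0, 1, 1], ![1, 1, 1, 0]),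
      (![1, 0, 0, 1], ![0, 1, 0, 0]), (![0, 1, 1, 1], ![0, 0, 1, 1]), (![1, 0, 0, 0], ![0, 0, 0, 1]),
      (![0, 1, 1, 1], ![1, 1, 0, 1])], A ^ 30 = 1 ∧
      A * !![0, 1, 0, 0; 1, 1, 0, 0; 0, 0, 0, 1; 0, 0, 1, 1] = !![0, 1, 0, 0; 1, 1, 0, 0; 0, 0, 0, 1; 0, 0, 1, 1] * A ∧
      x.1 ≠ 0 ∧ x.2 ≠ 0 ∧ x.2 ⬝ᵥ x.1 = 0 ∧ A ^ 29 * (1 + vecMulVec x.1 x.2) * T = T * (A ^ 29 * (1 + vecMulVec x.1 x.2)) := by
  decide +kernel

theorem gl42 [Fintype F] [FiniteDimensional F V] (hq : Fintype.card F = 2) (hr : finrank F K = 2) (hV : finrank K V = 2)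
    (hM : ∀ l : V ≃ₗ[F] V, (∀ (k : K) y, l (k • y) = k • l y) → l ∈ M) {g : V ≃ₗ[F] V} (hg : g ∈ M) :
    (∃ (u : V) (f : Dual F V), u ≠ 0 ∧ f ≠ 0 ∧ f u = 0 ∧ Tv M u f) ∨ ∀ k : K, ∃ k' : K, ∀ y, g (k • y) = k' • g y := by
  have := Module.finite_of_finrank_eq_succ hr
  have := Module.finite_of_finite F (M := K)
  have := Fintype.ofFinite K
  let φ := (ZMod.ringEquivOfPrime F (by decide) hq).symm
  obtain ⟨ω, h1⟩ : ∃ ω : K, ω ∉ F ∙ (1 : K) := exists_not_mem_pt hr.ge 1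
  have h2 : ∀ k : K, ∃ a b : F, k = a • 1 + b • ω := span2 hr one_ne_zero h1
  have h3 : ω * ω = ω + 1 := by
    have a : ω ^ 4 = ω := by
      have := FiniteField.pow_card ω
      rwa [← Nat.card_eq_fintype_card, Module.natCard_eq_pow_finrank (K := F), hr, Nat.card_eq_fintype_card, hq] at this
    have b : (2 : K) = 0 := by
      rw [← map_ofNat (algebraMap F K), show (2 : F) = 0 by simpa [hq] using FiniteField.cast_card_eq_zero F, map_zero]
    have c : ω ≠ 0 := by rintro rfl; exact h1 (zero_mem _)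
    have d : ω - 1 ≠ 0 := fun h => h1 (sub_eq_zero.1 h ▸ Submodule.mem_span_singleton_self _)
    exact mul_left_cancel₀ (mul_ne_zero c d) (by linear_combination a - (ω ^ 3 - ω) * b)
  let Ω : V →ₗ[F] V := (LinearMap.lsmul K V ω).restrictScalars F
  have hl : ∀ l : V ≃ₗ[F] V, (∀ y, l (ω • y) = ω • l y) → l ∈ M := fun l h => hM l fun k y => by
    obtain ⟨a, b, rfl⟩ := h2 k; simp [add_smul, h]
  by_cases h4 : ∀ v, cn g Ω v ∈ pt F K v
  · obtain ⟨k', e⟩ := scalar_of_pres (exists_not_mem_pt hV.ge) h4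
    refine Or.inr fun k => ?_
    obtain ⟨a, b, rfl⟩ := h2 k
    exact ⟨a • 1 + b • k', fun y => by simpa [add_smul, Ω] using congrArg (b • ·) (e (g y))⟩
  push Not at h4
  obtain ⟨s, hs⟩ := h4
  set θ := cn g Ω with eθ
  have s0 : s ≠ 0 := by rintro rfl; exact hs (by simp)
  have h5 : ∀ y, θ (θ y) = θ y + y := fun y => by simp [eθ, Ω, smul_smul, h3, add_smul]
  have h6 : ⊤ ≤ Submodule.span F (Set.range ![s, ω • s, θ s, ω • θ s]) := fun z _ => by
    obtain ⟨a, b, rfl⟩ := span2 hV s0 hs z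
    obtain ⟨a, a', rfl⟩ := h2 a
    obtain ⟨b, b', rfl⟩ := h2 b
    simp only [add_smul, smul_assoc, one_smul]
    refine add_mem (add_mem ?_ ?_) (add_mem ?_ ?_) <;> refine Submodule.smul_mem _ _ (Submodule.subset_span ?_)
    exacts [⟨0, rfl⟩, ⟨1, rfl⟩, ⟨2, rfl⟩, ⟨3, rfl⟩]
  let b := basisOfTopLeSpanOfCardEqFinrank _ h6 (by rw [← finrank_mul_finrank F K V, hr, hV]; rfl)
  have hb : ∀ i, b i = ![s, ω • s, θ s, ω • θ s] i := fun i => by simp [b]
  let Ψ : Matrix (Fin 4) (Fin 4) (ZMod 2) ≃+* (V →ₗ[F] V) := φ.symm.mapMatrix.trans (toLinAlgEquiv b).toRingEquiv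
  have hΨ : ∀ A j, Ψ A (b j) = ∑ i, φ.symm (A i j) • b i := fun A j => toLinAlgEquiv_self b _ j
  have h7 : Ψ !![0, 1, 0, 0; 1, 1, 0, 0; 0, 0, 0, 1; 0, 0, 1, 1] = Ω := b.ext fun j => by
    rw [hΨ]; fin_cases j <;> simp [Fin.sum_univ_four, hb, Ω, smul_smul, h3, add_smul, add_comm]
  let a := fun i => φ (b.repr (θ (b 1)) i)
  let d := fun i => φ (b.repr (θ (b 3)) i)
  have h8 : Ψ !![0, a 0, 1, d 0; 0, a 1, 0, d 1; 1, a 2, 1, d 2; 0, a 3, 0, d 3] = θ := b.ext fun j => by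
    rw [hΨ]; fin_cases j
    · simp [Fin.sum_univ_four, hb]
    · exact (by simp [Fin.sum_univ_four, a, -Basis.sum_repr] : _ = _).trans (b.sum_repr (θ (b 1)))
    · simp [Fin.sum_univ_four, hb, h5, add_comm]
    · exact (by simp [Fin.sum_univ_four, d, -Basis.sum_repr] : _ = _).trans (b.sum_repr (θ (b 3)))
  obtain ⟨A, -, ⟨u, f⟩, -, a1, a2, a3, a4, a5, a6⟩ := gl42_aux a d _ (List.mem_singleton_self _) (Ψ.injective (by
    rw [map_mul, map_add, map_one, h8]; ext y; exact h5 y))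
  let u' := ∑ i, φ.symm (u i) • b i
  let f' : Dual F V := ∑ i, φ.symm (f i) • b.coord i
  have h9 : ∀ j, f' (b j) = φ.symm (f j) := fun j => by simp [f', Finsupp.single_apply]
  have h10 : f' u' = 0 := by
    simp only [u', map_sum, map_smul, h9, smul_eq_mul, ← map_mul]
    rw [← map_sum, ← dotProduct, dotProduct_comm, a5, map_zero]
  have h11 : ∀ y, Ψ (1 + vecMulVec u f) y = y + f' y • u' := fun y => by
    rw [map_add, map_one]
    refine congrArg (y + ·) (LinearMap.congr_fun (show _ = f'.smulRight u' from b.ext fun j => ?_) y)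
    simp [hΨ, h9, u', vecMulVec_apply, Finset.smul_sum, smul_smul, mul_comm]
  let l : V ≃ₗ[F] V := .ofLinear (Ψ A) (Ψ (A ^ 29)) (by rw [← Module.End.mul_eq_comp, ← map_mul, ← pow_succ', a1, map_one]; rfl)
    (by rw [← Module.End.mul_eq_comp, ← map_mul, ← pow_succ, a1, map_one]; rfl)
  have h12 : l ∈ M := hl l fun y => by
    have := congrArg Ψ a2
    rw [map_mul, map_mul, h7] at this; exact LinearMap.congr_fun this y
  have h13 := hl (g⁻¹ * (l⁻¹ * .transvection h10) * g) fun y => by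
    have := congrArg Ψ a6
    rw [map_mul, map_mul, map_mul, map_mul, h8] at this
    have := LinearMap.congr_fun this (g y)
    simp only [Module.End.mul_apply, h11, eθ, cn_apply, LinearEquiv.symm_apply_apply] at this
    simp only [LinearEquiv.mul_apply, LinearEquiv.transvection.apply, LinearEquiv.coe_inv]
    rw [LinearEquiv.symm_apply_eq]; exact this
  refine Or.inl ⟨u', f', fun h => a3 (funext fun i => ?_), fun h => a4 (funext fun i => ?_), h10, _,
    (M.mul_mem_cancel_left (M.inv_mem h12)).1 ((M.mul_mem_cancel_left (M.inv_mem hg)).1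
      ((M.mul_mem_cancel_right hg).1 h13)), LinearEquiv.transvection.apply h10⟩
  · simpa using Fintype.linearIndependent_iff.1 b.linearIndependent _ h i
  · simpa [h] using (h9 i).symm

end

universe u
variable {ι : Type} [Fintype ι] [DecidableEq ι] {F : Type u} [Field F] {K : Subalgebra F (Matrix ι ι F)} {r : ℕ}

theorem fld_bridge [Nonempty ι] (hK : IsFieldSubalgebra r K) {P : Prop}
    (h : ∀ (E : Type u) [Field E] [Algebra F E] [Module E (ι → F)] [IsScalarTower F E (ι → F)] [FiniteDimensional F E],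
      finrank F E = r → (∀ a, a ∈ K ↔ ∃ e : E, ∀ v : ι → F, a *ᵥ v = e • v) → (∀ e : E, ∃ a ∈ K, ∀ v : ι → F, a *ᵥ v = e • v) → P) :
    P := by
  letI := (isField hK).toField
  have : IsScalarTower F K (ι → F) := ⟨fun c k v => smul_mulVec c k.1 v⟩
  exact h K hK.3 (fun a => ⟨fun ha => ⟨⟨a, ha⟩, fun _ => rfl⟩, fun ⟨e, he⟩ => matrix_eq_iff_mulVec.2 he ▸ e.2⟩)
    fun e => ⟨e.1, e.2, fun _ => rfl⟩

section
variable {E : Type*} [Field E] [Algebra F E] [Module E (ι → F)] [IsScalarTower F E (ι → F)]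
  (h1 : ∀ a, a ∈ K ↔ ∃ e : E, ∀ v : ι → F, a *ᵥ v = e • v) (h2 : ∀ e : E, ∃ a ∈ K, ∀ v : ι → F, a *ᵥ v = e • v)
include h1 h2

omit [Algebra F E] [IsScalarTower F E (ι → F)] in
theorem mem_nrm_iff {g : GL ι F} : g ∈ subalgebraNormalizer K ↔
    ∀ e : E, ∃ e' : E, ∀ y : ι → F, g.1 *ᵥ (e • y) = e' • g.1 *ᵥ y := by
  refine ⟨fun h e => ?_, fun h => ?_⟩
  · obtain ⟨a, ha, e1⟩ := h2 e
    obtain ⟨e', e2⟩ := (h1 _).1 (nrm_normalizer K g h a ha)
    exact ⟨e', fun y => by rw [← e1, ← cj_mulVec, e2]⟩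
  have H : K.map (cj g : _ →ₐ[F] _) ≤ K := by
    rintro _ ⟨a, ha, rfl⟩
    obtain ⟨e, e1⟩ := (h1 a).1 ha
    obtain ⟨e', e2⟩ := h e
    exact (h1 _).2 ⟨e', fun v => by
      rw [← mulVec_inv_mulVec g v]; exact (cj_mulVec g a _).trans (by rw [e1, e2])⟩
  have H' : K.map (cj g : _ →ₐ[F] _) = K := Subalgebra.eq_of_le_of_finrank_eq H
    (K.equivMapOfInjective _ (cj g).injective).toLinearEquiv.finrank_eq.symm
  refine fun k => ⟨fun hk => H ⟨k, hk, rfl⟩, fun hk => ?_⟩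
  obtain ⟨a, ha, e⟩ := H'.ge hk
  exact (cj g).injective e ▸ ha

theorem exists_dil [FiniteDimensional F E] (w : ι → F) (φ : Dual E (ι → F)) (h : 1 + φ w ≠ 0) :
    ∃ g ∈ subalgebraNormalizer K, det g.1 = Algebra.norm F (1 + φ w) ∧ ∀ y, g.1 *ᵥ y = y + φ y • w := by
  have := Module.Finite.of_restrictScalars_finite F E (ι → F)
  let l := LinearEquiv.dilatransvection (f := φ) (v := w) (IsUnit.mk0 _ h)
  have e : ∀ y, (glEquiv.symm (l.restrictScalars F)).1 *ᵥ y = y + φ y • w := fun y =>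
    (glEquiv_symm_mulVec _ y).trans (LinearEquiv.dilatransvection.apply (h := IsUnit.mk0 _ h))
  refine ⟨_, (mem_nrm_iff h1 h2).2 fun k => ⟨k, fun y => by simp [e, mul_smul]⟩, ?_, e⟩
  rw [← LinearMap.transvection.det, ← LinearMap.det_restrictScalars, ← LinearMap.det_toLin']
  congr 1; ext1; exact LinearMap.ext fun y => e _

end

theorem fld_cases [Fintype F] (hr : r.Prime) (hK : IsFieldSubalgebra r K) (hn : r < Fintype.card ι)
    {M : Subgroup (GL ι F)} (hM : subalgebraNormalizer K ⊓ specialLinear ι F ≤ M) :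
    specialLinear ι F ≤ M ∨ M ≤ subalgebraNormalizer K := by
  have : Nonempty ι := Fintype.card_pos_iff.1 (by omega)
  refine fld_bridge hK fun E _ _ _ _ _ hE h1 h2 => ?_
  have h3 : r * finrank E (ι → F) = Fintype.card ι := by rw [← hE, finrank_mul_finrank, finrank_fintype_fun_eq_card]
  have h4 : 2 ≤ finrank E (ι → F) := by
    by_contra h; have := Nat.mul_le_mul_left r (show finrank E (ι → F) ≤ 1 by omega); omega
  have h : HK (M.map (glEquiv (ι := ι) (F := F)).toMonoidHom) E := fun w φ h => by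
    obtain ⟨g, a, b, c⟩ := exists_dil h1 h2 w φ fun h0 => by simp [h0] at h
    exact ⟨_, ⟨g, hM ⟨a, H09.mem_specialLinear.2 (b.trans h)⟩, rfl⟩, c⟩
  by_cases hex : 3 ≤ finrank E (ι → F) ∨ 3 ≤ finrank F E ∨ ∃ c : F, c ≠ 0 ∧ c ≠ 1
  · exact (h.dichotomy (hE ▸ hr) h4 hex).imp specialLinear_le_of_fullSub fun H g hg =>
      (mem_nrm_iff h1 h2).2 (H _ ⟨g, hg, rfl⟩)
  push Not at hex
  have h5 := hr.two_le
  have hq : Fintype.card F = 2 := le_antisymm (by
    classical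
    simpa using Finset.card_le_two.trans' (Finset.card_le_card (show Finset.univ ⊆ {(0 : F), 1} from fun c _ => by
      by_cases h : c = 0 <;> simp [h, hex.2.2]))) Fintype.one_lt_card
  by_cases H : M ≤ subalgebraNormalizer K
  · exact Or.inr H
  obtain ⟨g, hg, hg'⟩ := SetLike.not_le_iff_exists.1 H
  obtain ⟨u, f, a, b, c, d⟩ := (gl42 (K := E) (M := M.map (glEquiv (ι := ι) (F := F)).toMonoidHom) hq (by omega) (by omega)
    (fun l hl => ⟨glEquiv.symm l, hM ⟨(mem_nrm_iff h1 h2).2 fun k => ⟨k, fun y => by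
      simp only [glEquiv_symm_mulVec, hl]⟩, H09.mem_specialLinear.2 (hex.2.2 _ (GeneralLinearGroup.det_ne_zero _))⟩,
      glEquiv.apply_symm_apply l⟩) ⟨g, hg, rfl⟩).resolve_right fun h => hg' ((mem_nrm_iff h1 h2).2 h)
  exact Or.inl (specialLinear_le_of_fullSub (h.full_of_tv (by omega) hex.2.2 a b c d))

theorem not_sl_le_fld (hK : IsFieldSubalgebra r K) (hr : 2 ≤ r) (hn : r < Fintype.card ι) :
    ¬ specialLinear ι F ≤ subalgebraNormalizer K := fun H => by
  have : Nonempty ι := Fintype.card_pos_iff.1 (by omega)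
  refine fld_bridge hK fun E _ _ _ _ _ hE h1 h2 => ?_
  have h3 : r * finrank E (ι → F) = Fintype.card ι := by rw [← hE, finrank_mul_finrank, finrank_fintype_fun_eq_card]
  have h4 : 2 ≤ finrank E (ι → F) := by
    by_contra h; have := Nat.mul_le_mul_left r (show finrank E (ι → F) ≤ 1 by omega); omega
  obtain ⟨e, he⟩ : ∃ e : E, e ∉ F ∙ (1 : E) := exists_not_mem_pt (hE ▸ hr) 1
  obtain ⟨v, hv⟩ := exists_ne (0 : ι → F)
  obtain ⟨w, hw⟩ := exists_not_mem_pt h4 v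
  have h5 : e • v ∉ (F ∙ v) ⊔ pt F E w := fun h => by
    obtain ⟨_, a', _, b', c⟩ := Submodule.mem_sup.1 h
    obtain ⟨a, rfl⟩ := Submodule.mem_span_singleton.1 a'
    obtain ⟨b, rfl⟩ := mem_pt.1 b'
    obtain ⟨φ, d, f⟩ := exists_dual_val (Form.not_mem_span_singleton_symm hv hw) (1 : E)
    exact he (Submodule.mem_span_singleton.2 ⟨a, by simpa [d, f] using congrArg φ c⟩)
  obtain ⟨f, a, b⟩ := exists_dual_sep h5
  obtain ⟨g, hg, c⟩ := exists_sl_tv w f (a w (Submodule.mem_sup_right (self_mem_pt w)))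
  obtain ⟨e', d⟩ := (mem_nrm_iff h1 h2).1 (H hg) e
  have := d v
  rw [c, c, b, a v (Submodule.mem_sup_left (Submodule.mem_span_singleton_self v))] at this
  exact hw (Submodule.mem_span_singleton.2 ⟨e' - e, by linear_combination (norm := module) -this⟩)

theorem isMaximalIn_fld_sl [Fintype F] (hr : r.Prime) (hK : IsFieldSubalgebra r K) (hn : r < Fintype.card ι) :
    IsMaximalIn (specialLinear ι F) (subalgebraNormalizer K ⊓ specialLinear ι F) :=
  ⟨lt_of_le_of_ne inf_le_right fun h => not_sl_le_fld hK hr.two_le hn (h.ge.trans inf_le_left), fun _ a b =>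
    (fld_cases hr hK hn a).symm.imp (fun h => le_antisymm (le_inf h b) a) (le_antisymm b)⟩

theorem isCoatom_fld [Fintype F] (hr : r.Prime) (hK : IsFieldSubalgebra r K) (hn : r < Fintype.card ι) :
    IsCoatom (subalgebraNormalizer K) := by
  refine ⟨fun h => not_sl_le_fld hK hr.two_le hn (h ▸ le_top), fun M hM => eq_top_iff.2 fun g _ => ?_⟩
  have H := (fld_cases hr hK hn (inf_le_left.trans hM.le)).resolve_right hM.not_ge
  have : Nonempty ι := Fintype.card_pos_iff.1 (by omega)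
  refine fld_bridge hK fun E _ _ _ _ _ hE h1 h2 => ?_
  have := Module.finite_of_finite F (M := E)
  obtain ⟨e, he⟩ := FiniteField.norm_surjective F E (det g.1)
  obtain ⟨v, hv⟩ := exists_ne (0 : ι → F)
  obtain ⟨φ, -, a⟩ := exists_dual_val (K := E) (v := 0) (t := v) (by simpa using hv) (e - 1)
  obtain ⟨k, b, c, -⟩ := exists_dil h1 h2 v φ fun h => GeneralLinearGroup.det_ne_zero g (by
    rw [← he, show e = 0 by simpa [a] using h, Algebra.norm_zero])
  refine (M.mul_mem_cancel_left (M.inv_mem (hM.le b))).1 (H (H09.mem_specialLinear.2 ?_))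
  rw [Units.val_mul, det_mul, ← he, show e = 1 + φ v by simp [a], ← c, ← det_mul, ← Units.val_mul, inv_mul_cancel]
  simp

theorem exists_fld_ne {L : Subalgebra F (Matrix ι ι F)} {s : ℕ} (hK : IsFieldSubalgebra r K) (hL : IsFieldSubalgebra s L)
    (h : L < K) (hn : r < Fintype.card ι) :
    ∃ g ∈ subalgebraNormalizer L ⊓ specialLinear ι F, g ∉ subalgebraNormalizer K := by
  have : Nonempty ι := Fintype.card_pos_iff.1 (by omega)
  refine fld_bridge hK fun E _ _ _ _ _ hE h1 h2 => fld_bridge hL fun E' _ _ _ _ _ _ h1' h2' => ?_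
  have h3 : r * finrank E (ι → F) = Fintype.card ι := by rw [← hE, finrank_mul_finrank, finrank_fintype_fun_eq_card]
  have h4 : 2 ≤ finrank E (ι → F) := by
    by_contra h; have := Nat.mul_le_mul_left r (show finrank E (ι → F) ≤ 1 by omega); omega
  obtain ⟨a, ha, ha'⟩ := SetLike.exists_of_lt h
  obtain ⟨e, he⟩ := (h1 a).1 ha
  obtain ⟨v, hv⟩ := exists_ne (0 : ι → F)
  obtain ⟨w, hw⟩ := exists_not_mem_pt h4 v
  have h5 : e • v ∉ (E' ∙ v) ⊔ E' ∙ w := fun h5 => by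
    obtain ⟨_, a', _, b', c⟩ := Submodule.mem_sup.1 h5
    obtain ⟨x, rfl⟩ := Submodule.mem_span_singleton.1 a'
    obtain ⟨y, rfl⟩ := Submodule.mem_span_singleton.1 b'
    obtain ⟨x', x1, x2⟩ := h2' x
    obtain ⟨y', y1, y2⟩ := h2' y
    obtain ⟨x'', x3⟩ := (h1 _).1 (h.le x1)
    obtain ⟨y'', y3⟩ := (h1 _).1 (h.le y1)
    obtain ⟨φ, d, f⟩ := exists_dual_val (Form.not_mem_span_singleton_symm hv hw) (1 : E)
    rw [← x2, ← y2, x3, y3] at c
    obtain rfl : x'' = e := by simpa [d, f] using congrArg φ c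
    exact ha' ((matrix_eq_iff_mulVec.2 fun z => (x3 z).trans (he z).symm) ▸ x1)
  obtain ⟨f, b, c⟩ := exists_dual_sep h5
  have h6 := b w (Submodule.mem_sup_right (Submodule.mem_span_singleton_self w))
  obtain ⟨g, g1, g2, g3⟩ := exists_dil h1' h2' w f (by simp [h6])
  refine ⟨g, ⟨g1, H09.mem_specialLinear.2 (by simp [g2, h6])⟩, fun H => ?_⟩
  obtain ⟨e', d⟩ := (mem_nrm_iff h1 h2).1 H e
  have := d v
  rw [g3, g3, c, b v (Submodule.mem_sup_left (Submodule.mem_span_singleton_self v))] at this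
  exact hw (Submodule.mem_span_singleton.2 ⟨e' - e, by
    rw [one_smul, zero_smul] at this; linear_combination (norm := module) -this⟩)

end H10.Mx
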